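import Cfsg.Agent.OrthGeo.DecompRefineCases

/-! Values of a quadratic form on small non-degenerate subspaces in odd characteristic. -/

set_option autoImplicit false
set_option linter.unusedSectionVars false

namespace CfsgLib.OrthGeo

open Cfsg Cfsg.Geo Module
open scoped Matrix MatrixGroups

variable {ι : Type} [Fintype ι] [DecidableEq ι] {F : Type*} [Field F] [Fintype F]
variable {Q : (ι → F) → F} (hQ : IsNondegenerateQuadraticForm Q) (h2 : (2 : F) ≠ 0)
variable {U : Submodule F (ι → F)} (hU : ∀ x ∈ U, x ∈ perp hQ U → x = 0)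
include hU h2

lemma b_self_ne_zero {a : ι → F} (ha : Q a ≠ 0) : bform hQ a a ≠ 0 := by
  rw [b_self hQ]; exact mul_ne_zero h2 ha

/-- Every value is attained on a non-degenerate plane. -/
lemma exists_value (hd : 2 ≤ finrank F U) (c : F) : ∃ x ∈ U, Q x = c := by
  obtain ⟨a, ha, haQ⟩ := exists_q_ne_zero hQ hU (by omega)
  obtain ⟨hU1, hd1⟩ := inf_perp_split hQ hU ha (b_self_ne_zero hQ h2 hU haQ)
  obtain ⟨b, hb, hbQ⟩ := exists_q_ne_zero hQ hU1 (by omega)
  have hodd : Fintype.card F % 2 = 1 := FiniteField.odd_card_of_char_ne_two fun hch => h2 (by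
    have : CharP F 2 := by rw [← hch]; exact ringChar.charP F
    exact_mod_cast CharP.cast_eq_zero F 2)
  obtain ⟨p, r, hpr⟩ := FiniteField.exists_root_sum_quadratic
    (f := Polynomial.C (Q a) * Polynomial.X ^ 2 - Polynomial.C c)
    (g := Polynomial.C (Q b) * Polynomial.X ^ 2)
    (by compute_degree <;> first | assumption | simpa using haQ | norm_num)
    (by compute_degree <;> first | assumption | simpa using hbQ | norm_num) hodd
  simp at hpr
  refine ⟨p • a + r • b, U.add_mem (U.smul_mem _ ha) (U.smul_mem _ hb.1), ?_⟩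
  rw [q_add hQ, q_smul hQ, q_smul hQ, map_smul, map_smul, LinearMap.smul_apply,
    (mem_perp_span_singleton hQ).1 hb.2, smul_zero, smul_zero, add_zero]
  linear_combination hpr

/-- Splitting off a hyperbolic pair. -/
lemma exists_hyp_split {u : ι → F} (hu : u ∈ U) (hu0 : u ≠ 0) (huQ : Q u = 0) :
    ∃ f ∈ U, Q f = 0 ∧ bform hQ u f = 1 ∧ ∃ U' : Submodule F (ι → F), U' ≤ U ∧
      (∀ x ∈ U', bform hQ u x = 0 ∧ bform hQ f x = 0) ∧ (∀ x ∈ U', x ∈ perp hQ U' → x = 0) ∧
      finrank F U ≤ finrank F U' + 2 ∧ ∀ x ∈ U, x - bform hQ f x • u - bform hQ u x • f ∈ U' := by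
  obtain ⟨y, hy, hyu⟩ := exists_mem_b_ne_zero hQ (fun h => hu0 (hU u hu h))
  obtain ⟨y', hy', hb'⟩ : ∃ y' ∈ U, bform hQ u y' = 1 := ⟨(bform hQ y u)⁻¹ • y, U.smul_mem _ hy, by
    rw [map_smul, smul_eq_mul, b_symm hQ u y, inv_mul_cancel₀ hyu]⟩
  obtain ⟨f, hf⟩ : ∃ f, f = y' - Q y' • u := ⟨_, rfl⟩
  have huu := b_self_eq_zero hQ huQ
  have hfU : f ∈ U := hf ▸ U.sub_mem hy' (U.smul_mem _ hu)
  have huf : bform hQ u f = 1 := by rw [hf, map_sub, map_smul, huu, smul_zero, sub_zero, hb']
  have hfQ : Q f = 0 := by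
    rw [hf, q_sub hQ, q_smul hQ, huQ, map_smul, b_symm hQ y' u, hb', smul_eq_mul]; ring
  have hff := b_self_eq_zero hQ hfQ
  refine ⟨f, hfU, hfQ, huf, U ⊓ perp hQ (Submodule.span F {u} ⊔ Submodule.span F {f}), inf_le_left,
    fun x hx => (mem_perp_pair hQ).1 hx.2, ?_, ?_, ?_⟩
  rotate_left 2
  · intro x hx
    refine ⟨U.sub_mem (U.sub_mem hx (U.smul_mem _ hu)) (U.smul_mem _ hfU), (mem_perp_pair hQ).2 ⟨?_, ?_⟩⟩
    · simp [-bform_apply, huu, huf]
    · simp [-bform_apply, hff, b_symm hQ f u, huf]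
  · intro w hw hw'
    obtain ⟨hw1, hw2⟩ := (mem_perp_pair hQ).1 hw.2
    refine hU w hw.1 fun x hx => ?_
    have hxU : x - bform hQ f x • u - bform hQ u x • f ∈
        U ⊓ perp hQ (Submodule.span F {u} ⊔ Submodule.span F {f}) := by
      refine ⟨U.sub_mem (U.sub_mem hx (U.smul_mem _ hu)) (U.smul_mem _ hfU), (mem_perp_pair hQ).2 ⟨?_, ?_⟩⟩
      · simp [-bform_apply, huu, huf]
      · simp [-bform_apply, hff, b_symm hQ f u, huf]
    have h1 := hw' _ hxU
    simpa [-bform_apply, hw1, hw2] using h1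
  · have h1 := finrank_le_inf_perp hQ U (Submodule.span F {u} ⊔ Submodule.span F {f})
    have h2 := finrank_span_pair_le hQ u f
    omega

/-- The vectors of a given value detect every non-zero vector. -/
lemma exists_value_b_ne_zero (hd : 2 ≤ finrank F U) (hq : 5 ≤ Fintype.card F ∨ 3 ≤ finrank F U) {c : F}
    (hc : c ≠ 0) {y : ι → F} (hy : y ∈ U) (hy0 : y ≠ 0) : ∃ x ∈ U, Q x = c ∧ bform hQ x y ≠ 0 := by
  obtain ⟨x₀, hx₀, hx₀Q⟩ := exists_value hQ h2 hU hd c
  by_contra hcon
  push Not at hcon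
  have hx₀y : bform hQ x₀ y = 0 := hcon x₀ hx₀ hx₀Q
  obtain ⟨hU1, hd1⟩ := inf_perp_split hQ hU hx₀ (b_self_ne_zero hQ h2 hU (hx₀Q ▸ hc))
  have hyU1 : y ∈ U ⊓ perp hQ (Submodule.span F {x₀}) := ⟨hy, (mem_perp_span_singleton hQ).2 hx₀y⟩
  have key : ∀ a ∈ U ⊓ perp hQ (Submodule.span F {x₀}), bform hQ a y ≠ 0 →
      ∀ m : F, m ≠ 0 → c * m ^ 2 + Q a = 0 := by
    intro a ha hay m hm
    by_contra hne
    have hx₀a : bform hQ x₀ a = 0 := (mem_perp_span_singleton hQ).1 ha.2
    set r := -2 * c * m / (c * m ^ 2 + Q a) with hr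
    have h1 := hcon ((1 + m * r) • x₀ + r • a) (U.add_mem (U.smul_mem _ hx₀) (U.smul_mem _ ha.1)) (by
      rw [q_add hQ, q_smul hQ, q_smul hQ, map_smul, map_smul, LinearMap.smul_apply, hx₀a, hx₀Q, smul_zero,
        smul_zero, add_zero]
      have : r * (c * m ^ 2 + Q a) = -2 * c * m := by rw [hr, div_mul_cancel₀ _ hne]
      linear_combination r * this)
    rw [map_add, map_smul, map_smul, LinearMap.add_apply, LinearMap.smul_apply, LinearMap.smul_apply, hx₀y,
      smul_zero, zero_add, smul_eq_mul, mul_eq_zero] at h1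
    exact (h1.resolve_right hay) |> fun h => by
      rw [hr, div_eq_zero_iff] at h
      exact h.elim (fun h' => by simp [h2, hc, hm] at h') hne
  obtain ⟨a, ha, hay⟩ : ∃ a ∈ U ⊓ perp hQ (Submodule.span F {x₀}), bform hQ a y ≠ 0 :=
    exists_mem_b_ne_zero hQ (fun h => hy0 (hU1 y hyU1 h))
  by_cases hq' : 5 ≤ Fintype.card F
  · have k1 := key a ha hay 1 one_ne_zero
    have k2 := key a ha hay 2 h2
    have h3 : (3 : F) = 0 := (mul_eq_zero.1 (show c * 3 = 0 by linear_combination k2 - k1)).resolve_left hc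
    -- in characteristic three a further square is available
    classical
    obtain ⟨m, hm⟩ : ∃ m : F, m ∉ ({0, 1, -1} : Finset F) := by
      by_contra hall
      push Not at hall
      have h1 := Finset.card_le_card (s := (Finset.univ : Finset F)) (fun m _ => hall m)
      have h2 := Finset.card_insert_le (0 : F) ({1, -1} : Finset F)
      have h4 := Finset.card_le_two (a := (1 : F)) (b := -1)
      rw [Finset.card_univ] at h1
      omega
    simp only [Finset.mem_insert, Finset.mem_singleton, not_or] at hm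
    have k3 := key a ha hay m hm.1
    rcases sq_eq_one_iff.1 (show m ^ 2 = 1 from mul_left_cancel₀ hc (by linear_combination k3 - k1)) with h | h
    · exact hm.2.1 h
    · exact hm.2.2 h
  have hd3 : 3 ≤ finrank F U := hq.resolve_left hq'
  obtain ⟨h, hh, hh0⟩ := Submodule.exists_mem_ne_zero_of_ne_bot
    (p := U ⊓ perp hQ (Submodule.span F {x₀}) ⊓ perp hQ (Submodule.span F {y})) (fun h0 => by
      have h1 := finrank_le_inf_perp hQ (U ⊓ perp hQ (Submodule.span F {x₀})) (Submodule.span F {y})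
      rw [finrank_span_singleton hy0, h0, finrank_bot] at h1
      omega)
  have hhy : bform hQ h y = 0 := by rw [b_symm hQ]; exact (mem_perp_span_singleton hQ).1 hh.2
  have hv : ∀ v ∈ U ⊓ perp hQ (Submodule.span F {x₀}), bform hQ v y ≠ 0 → Q v = -c := fun v hv' hvy => by
    have := key v hv' hvy 1 one_ne_zero
    linear_combination this
  -- `h` would be radical in the perp of `x₀`
  refine hh0 (hU1 h hh.1 fun w hw => ?_)
  have hb : ∀ v ∈ U ⊓ perp hQ (Submodule.span F {x₀}), bform hQ v y ≠ 0 → bform hQ v h = 0 := by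
    intro v hv' hvy
    have e1 := hv (v + h) ((U ⊓ perp hQ _).add_mem hv' hh.1) (by rw [map_add, LinearMap.add_apply, hhy, add_zero]; exact hvy)
    have e2 := hv (v - h) ((U ⊓ perp hQ _).sub_mem hv' hh.1) (by rw [map_sub, LinearMap.sub_apply, hhy, sub_zero]; exact hvy)
    rw [q_add hQ, hv v hv' hvy] at e1
    rw [q_sub hQ, hv v hv' hvy] at e2
    exact (mul_eq_zero.1 (show (2 : F) * bform hQ v h = 0 by linear_combination e1 - e2)).resolve_left h2
  by_cases hwy : bform hQ w y = 0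
  · have := hb (a + w) ((U ⊓ perp hQ _).add_mem ha hw) (by rw [map_add, LinearMap.add_apply, hwy, add_zero]; exact hay)
    rwa [map_add, LinearMap.add_apply, hb a ha hay, zero_add] at this
  · exact hb w hw hwy

/-- Reflecting moves `z` by a vector of any prescribed value. -/
lemma exists_shift (hd : 3 ≤ finrank F U) {z : ι → F} (hz : z ∈ U) (hz0 : z ≠ 0) {c : F} (hc : c ≠ 0) :
    ∃ d ∈ U, Q d = c ∧ bform hQ z d = -c := by
  by_cases hzQ : Q z = 0
  · obtain ⟨f, hf, hfQ, hzf, -⟩ := exists_hyp_split hQ h2 hU hz hz0 hzQ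
    refine ⟨(-c) • f + (-1 : F) • z, U.add_mem (U.smul_mem _ hf) (U.smul_mem _ hz), ?_, ?_⟩
    · rw [q_add hQ, q_smul hQ, q_smul hQ, hfQ, hzQ, map_smul, map_smul, LinearMap.smul_apply, b_symm hQ f z, hzf,
        smul_eq_mul, smul_eq_mul]
      ring
    · rw [map_add, map_smul, map_smul, b_self_eq_zero hQ hzQ, hzf]; simp
  · obtain ⟨hU1, hd1⟩ := inf_perp_split hQ hU hz (b_self_ne_zero hQ h2 hU hzQ)
    set α := -c / (2 * Q z) with hα
    obtain ⟨e, he, heQ⟩ := exists_value hQ h2 hU1 (by omega) (c - α ^ 2 * Q z)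
    have hze : bform hQ z e = 0 := (mem_perp_span_singleton hQ).1 he.2
    refine ⟨α • z + e, U.add_mem (U.smul_mem _ hz) he.1, ?_, ?_⟩
    · rw [q_add hQ, q_smul hQ, heQ, map_smul, LinearMap.smul_apply, hze, smul_zero]; ring
    · rw [map_add, map_smul, hze, b_self hQ, add_zero, smul_eq_mul, hα, div_mul_cancel₀ _ (mul_ne_zero h2 hzQ)]

/-- `η` is a value taken on the perp of every vector of `U`. -/
def IsPerpValue (η : F) : Prop := ∀ v ∈ U, ∃ a ∈ U, bform hQ v a = 0 ∧ Q a = η

omit hU in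
/-- In dimension three the values on singular perps agree up to squares. -/
lemma exists_perp_value (hU : ∀ x ∈ U, x ∈ perp hQ U → x = 0) (hd : 3 ≤ finrank F U) :
    ∃ η : F, η ≠ 0 ∧ IsPerpValue (U := U) hQ η := by
  obtain ⟨u, hu, hu0, huQ⟩ := exists_singular hQ hd
  obtain ⟨f, hf, hfQ, huf, U', hle, hperp, hU', hd', hdec⟩ := exists_hyp_split hQ h2 hU hu hu0 huQ
  obtain ⟨e, he, heQ⟩ := exists_q_ne_zero hQ hU' (by omega)
  refine ⟨Q e, heQ, fun v hv => ?_⟩
  by_cases hv0 : v = 0
  · exact ⟨e, hle he, by rw [hv0, map_zero, LinearMap.zero_apply], rfl⟩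
  by_cases hvQ : Q v = 0
  swap
  · obtain ⟨hU1, hd1⟩ := inf_perp_split hQ hU hv (b_self_ne_zero hQ h2 hU hvQ)
    obtain ⟨a, ha, haQ⟩ := exists_value hQ h2 hU1 (by omega) (Q e)
    exact ⟨a, ha.1, (mem_perp_span_singleton hQ).1 ha.2, haQ⟩
  by_cases hd4 : 4 ≤ finrank F U
  · obtain ⟨f', hf', hf'Q, hvf', U'', hle', hperp', hU'', hd'', -⟩ := exists_hyp_split hQ h2 hU hv hv0 hvQ
    obtain ⟨a, ha, haQ⟩ := exists_value hQ h2 hU'' (by omega) (Q e)
    exact ⟨a, hle' ha, (hperp' a ha).1, haQ⟩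
  -- dimension three: adjust `e` along `u`
  obtain ⟨hue, hfe⟩ := hperp e he
  by_cases hvu : bform hQ u v = 0
  · refine ⟨e, hle he, ?_, rfl⟩
    have hv' := hdec v hv
    rw [hvu, zero_smul, sub_zero] at hv'
    have hQ' : Q (v - bform hQ f v • u) = 0 := by
      rw [q_sub hQ, q_smul hQ, hvQ, huQ, map_smul, b_symm hQ v u, hvu]; simp
    obtain ⟨hU'2, hd2⟩ := inf_perp_split hQ hU' he (b_self_ne_zero hQ h2 hU heQ)
    have hd1 : finrank F U' = 1 := by
      have hle3 : finrank F U' + 2 ≤ finrank F U := by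
        have huu := b_self_eq_zero hQ huQ
        have hff := b_self_eq_zero hQ hfQ
        have h1 := Submodule.finrank_mono (show U' ≤ U ⊓ perp hQ (Submodule.span F {u}) from
          fun x hx => ⟨hle hx, (mem_perp_span_singleton hQ).2 (hperp x hx).1⟩)
        have h3 : U' < U ⊓ perp hQ (Submodule.span F {u}) := lt_of_le_not_ge
          (fun x hx => ⟨hle hx, (mem_perp_span_singleton hQ).2 (hperp x hx).1⟩)
          fun hge => by
            have := (hperp u (hge ⟨hu, (mem_perp_span_singleton hQ).2 huu⟩)).2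
            rw [b_symm hQ, huf] at this
            exact one_ne_zero this
        have h4 : U ⊓ perp hQ (Submodule.span F {u}) < U := lt_of_le_not_ge inf_le_left fun hge => by
          have := (mem_perp_span_singleton hQ).1 (hge hf).2
          rw [huf] at this
          exact one_ne_zero this
        have := Submodule.finrank_lt_finrank_of_lt h3
        have := Submodule.finrank_lt_finrank_of_lt h4
        omega
      omega
    have hbot := Submodule.finrank_eq_zero.1 (show finrank F ↥(U' ⊓ perp hQ (Submodule.span F {e})) = 0 by omega)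
    obtain ⟨r, hr⟩ := orth_step hQ he (b_self_ne_zero hQ h2 hU heQ) hv'
    rw [hbot, Submodule.mem_bot, sub_eq_zero] at hr
    rw [hr, q_smul hQ, mul_eq_zero] at hQ'
    have hr0 : r = 0 := pow_eq_zero_iff two_ne_zero |>.1 (hQ'.resolve_right heQ)
    rw [sub_eq_iff_eq_add.1 hr, hr0, zero_smul, zero_add, map_smul, LinearMap.smul_apply, hue, smul_zero]
  · refine ⟨e + (-(bform hQ v e) / bform hQ u v) • u, U.add_mem (hle he) (U.smul_mem _ hu), ?_, ?_⟩
    · rw [map_add, map_smul, smul_eq_mul, b_symm hQ v u, div_mul_cancel₀ _ hvu, add_neg_cancel]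
    · rw [q_add hQ, q_smul hQ, huQ, map_smul, b_symm hQ e u, hue]; simp

omit hU in
/-- A vector of perp value is orthogonal to a non-zero singular vector. -/
lemma exists_singular_perp (hU : ∀ x ∈ U, x ∈ perp hQ U → x = 0) (hd : 3 ≤ finrank F U) {η : F} (hη : η ≠ 0)
    (hpv : IsPerpValue (U := U) hQ η) {a : ι → F} (ha : a ∈ U) (haQ : Q a = η) :
    ∃ c ∈ U, Q c = 0 ∧ c ≠ 0 ∧ bform hQ a c = 0 := by
  by_cases hd4 : 4 ≤ finrank F U
  · obtain ⟨hU1, hd1⟩ := inf_perp_split hQ hU ha (b_self_ne_zero hQ h2 hU (haQ ▸ hη))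
    obtain ⟨c, hc, hc0, hcQ⟩ := exists_singular hQ (S := U ⊓ perp hQ (Submodule.span F {a})) (by omega)
    exact ⟨c, hc.1, hcQ, hc0, (mem_perp_span_singleton hQ).1 hc.2⟩
  obtain ⟨u, hu, hu0, huQ⟩ := exists_singular hQ hd
  obtain ⟨f, hf, hfQ, huf, U', hle, hperp, hU', hd', hdec⟩ := exists_hyp_split hQ h2 hU hu hu0 huQ
  obtain ⟨e', he'U, hue', he'Q⟩ := hpv u hu
  set e := e' - bform hQ f e' • u with he
  have heU : e ∈ U := U.sub_mem he'U (U.smul_mem _ hu)
  have huu := b_self_eq_zero hQ huQ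
  have hff := b_self_eq_zero hQ hfQ
  have hfu : bform hQ f u = 1 := by rw [b_symm hQ]; exact huf
  have hue : bform hQ u e = 0 := by rw [he, map_sub, map_smul, huu, hue', smul_zero, sub_zero]
  have hfe : bform hQ f e = 0 := by rw [he, map_sub, map_smul, hfu, smul_eq_mul, mul_one, sub_self]
  have heQ : Q e = η := by rw [he, q_sub hQ, q_smul hQ, huQ, map_smul, b_symm hQ e' u, hue', he'Q]; simp
  set α := bform hQ f a with hα
  set β := bform hQ u a with hβ
  set y := a - α • u - β • f with hy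
  obtain ⟨γ, hγ⟩ : ∃ γ : F, y = γ • e := by
    have hyU' := hdec a ha
    have heU' := hdec e heU
    rw [hue, hfe, zero_smul, zero_smul, sub_zero, sub_zero] at heU'
    obtain ⟨-, hd2⟩ := inf_perp_split hQ hU' heU' (b_self_ne_zero hQ h2 hU (heQ ▸ hη))
    obtain ⟨γ, hr⟩ := orth_step hQ heU' (b_self_ne_zero hQ h2 hU (heQ ▸ hη)) hyU'
    have hlt : finrank F U' + 2 ≤ finrank F U := by
      have h3 : U' < U ⊓ perp hQ (Submodule.span F {u}) := lt_of_le_not_ge
        (fun x hx => ⟨hle hx, (mem_perp_span_singleton hQ).2 (hperp x hx).1⟩)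
        fun hge => by
          have := (hperp u (hge ⟨hu, (mem_perp_span_singleton hQ).2 huu⟩)).2
          rw [hfu] at this
          exact one_ne_zero this
      have h4 : U ⊓ perp hQ (Submodule.span F {u}) < U := lt_of_le_not_ge inf_le_left fun hge => by
        have := (mem_perp_span_singleton hQ).1 (hge hf).2
        rw [huf] at this
        exact one_ne_zero this
      have := Submodule.finrank_lt_finrank_of_lt h3
      have := Submodule.finrank_lt_finrank_of_lt h4
      omega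
    have hbot := Submodule.finrank_eq_zero.1 (show finrank F ↥(U' ⊓ perp hQ (Submodule.span F {e})) = 0 by omega)
    rw [hbot, Submodule.mem_bot, sub_eq_zero] at hr
    exact ⟨γ, hr⟩
  have haeq : a = α • u + β • f + γ • e := by rw [← hγ, hy]; abel
  have hval : α * β + γ ^ 2 * η = η := by
    have h := haQ
    rw [haeq] at h
    simp only [q_add hQ, q_smul hQ, huQ, hfQ, heQ, map_add, map_smul, LinearMap.add_apply, LinearMap.smul_apply,
      smul_eq_mul, huf, hue, hfe] at h
    linear_combination h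
  clear_value α β
  by_cases hα0 : α = 0
  · exact ⟨f, hf, hfQ, fun h0 => by rw [h0, map_zero] at huf; exact zero_ne_one huf, by
      rw [haeq]; simp [-bform_apply, huf, hff, b_symm hQ e f, hfe, hα0]⟩
  by_cases hβ0 : β = 0
  · exact ⟨u, hu, huQ, hu0, by rw [haeq]; simp [-bform_apply, huu, hfu, b_symm hQ e u, hue, hβ0]⟩
  have hγ1 : η - γ * η ≠ 0 := fun h0 => mul_ne_zero hα0 hβ0 (by linear_combination hval + (1 + γ) * h0)
  set p := (η - γ * η) / β with hp
  have hp0 : p ≠ 0 := div_ne_zero hγ1 hβ0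
  set c := p • u + (-η / p) • f + e with hc
  refine ⟨c, U.add_mem (U.add_mem (U.smul_mem _ hu) (U.smul_mem _ hf)) heU, ?_, ?_, ?_⟩
  · rw [hc]
    simp only [q_add hQ, q_smul hQ, huQ, hfQ, heQ, map_add, map_smul, LinearMap.add_apply, LinearMap.smul_apply,
      smul_eq_mul, huf, hue, hfe]
    field_simp
    ring
  · intro h0
    have := congrArg (bform hQ e) h0
    rw [hc, map_zero, map_add, map_add, map_smul, map_smul, b_symm hQ e u, hue, b_symm hQ e f, hfe, smul_zero,
      smul_zero, zero_add, zero_add, b_self hQ, heQ] at this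
    exact mul_ne_zero h2 hη this
  · rw [haeq, hc]
    simp only [map_add, map_smul, LinearMap.add_apply, LinearMap.smul_apply, smul_eq_mul, huu, hff, huf, hfu, hue,
      hfe, b_symm hQ e u, b_symm hQ e f, b_self hQ, heQ]
    have hpβ : p * β = η - γ * η := by rw [hp, div_mul_cancel₀ _ hβ0]
    have hG : β * p ^ 2 + 2 * γ * η * p - α * η = 0 := mul_left_cancel₀ hβ0
      (show β * (β * p ^ 2 + 2 * γ * η * p - α * η) = β * 0 by
        linear_combination (p * β + η + γ * η) * hpβ - η * hval)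
    field_simp
    linear_combination hG

end CfsgLib.OrthGeo
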