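import Cfsg.Agent.OrthGeo.DecompForms
import Cfsg.Agent.OrthGeo.CharTwo

/-! A single member of an orthogonal decomposition, any characteristic: values, connectedness of the
non-singular vectors, and additive subgroups closed under a large set of multipliers. -/

set_option autoImplicit false
set_option linter.unusedSectionVars false

namespace CfsgLib.OrthGeo

open Cfsg Cfsg.Geo Module
open scoped Matrix MatrixGroups

variable {F : Type*} [Field F] [Fintype F]

lemma ringChar_eq_two_of_two_eq_zero (h2 : (2 : F) = 0) : ringChar F = 2 :=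
  CharP.ringChar_of_prime_eq_zero Nat.prime_two (by exact_mod_cast h2)

lemma isSquare_of_two_eq_zero (h2 : (2 : F) = 0) (a : F) : IsSquare a :=
  FiniteField.isSquare_of_char_two (ringChar_eq_two_of_two_eq_zero h2) a

lemma exists_ne_zero_ne (hq : 3 ≤ Fintype.card F) (r : F) : ∃ s : F, s ≠ 0 ∧ s ≠ r := by
  classical
  by_contra h
  push Not at h
  have h1 := Finset.card_le_card (s := (Finset.univ : Finset F)) (t := {0, r}) fun s _ => by
    by_cases h0 : s = 0
    · simp [h0]
    · simp [h s h0]
  have h2 := Finset.card_le_two (a := (0 : F)) (b := r)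
  rw [Finset.card_univ] at h1
  omega

/-- An additive subgroup closed under more multipliers than a proper subfield can have is everything. -/
lemma addSubgroup_eq_top_of_multipliers (C : AddSubgroup F) {c₀ : F} (hc : c₀ ∈ C) (hc0 : c₀ ≠ 0)
    (K : Finset F) (hK : ∀ k ∈ K, ∀ c ∈ C, k * c ∈ C)
    (hcard : Fintype.card F < K.card ^ 2 ∨ (Fintype.card F).Prime) : ∀ c, c ∈ C := by
  let R : Subring F :=
    { carrier := {k | ∀ c ∈ C, k * c ∈ C}
      mul_mem' := fun {a b} ha hb c hc => by rw [mul_assoc]; exact ha _ (hb c hc)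
      one_mem' := fun c hc => by rwa [one_mul]
      add_mem' := fun {a b} ha hb c hc => by rw [add_mul]; exact C.add_mem (ha c hc) (hb c hc)
      zero_mem' := fun c _ => by rw [zero_mul]; exact C.zero_mem
      neg_mem' := fun {a} ha c hc => by rw [neg_mul]; exact C.neg_mem (ha c hc) }
  let L : Subfield F :=
    { R with
      inv_mem' := fun a ha => by
        by_cases ha0 : a = 0
        · rw [ha0, inv_zero]; exact R.zero_mem
        · have hq := Fintype.one_lt_card (α := F)
          rw [show a⁻¹ = a ^ (Fintype.card F - 2) from (eq_inv_of_mul_eq_one_left (by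
            rw [← pow_succ, show Fintype.card F - 2 + 1 = Fintype.card F - 1 by omega]
            exact FiniteField.pow_card_sub_one_eq_one a ha0)).symm]
          exact R.pow_mem ha _ }
  have hcardL := Module.natCard_eq_pow_finrank (K := L) (V := F)
  have hKL : K.card ≤ Nat.card L := by
    have := Nat.card_le_card_of_injective (fun k : {k // k ∈ K} => (⟨k.1, hK k.1 k.2⟩ : L))
      (fun a b h => Subtype.ext (congrArg Subtype.val h :))
    simpa using this
  have hd : finrank L F = 1 := by
    have hpos : 0 < finrank L F := Module.finrank_pos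
    by_contra hne
    have hd2 : 2 ≤ finrank L F := by omega
    have h1 : 1 < Nat.card L := Finite.one_lt_card
    rw [Nat.card_eq_fintype_card (α := F)] at hcardL
    rcases hcard with h | h
    · have := Nat.pow_le_pow_right (show 1 ≤ Nat.card L by omega) hd2
      have := Nat.pow_le_pow_left hKL 2
      omega
    · rw [hcardL] at h
      exact Nat.Prime.not_prime_pow hd2 h
  intro c
  rw [hd, pow_one] at hcardL
  have hall : ∀ k : F, k ∈ (L : Set F) := by
    intro k
    have hb : Function.Bijective (Subtype.val : L → F) :=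
      Subtype.val_injective.bijective_of_nat_card_le (by rw [hcardL])
    obtain ⟨m, rfl⟩ := hb.2 k
    exact m.2
  have := (hall (c / c₀)) c₀ hc
  rwa [div_mul_cancel₀ _ hc0] at this

variable {ι : Type} [Fintype ι] [DecidableEq ι]
variable {Q : (ι → F) → F} (hQ : IsNondegenerateQuadraticForm Q)
variable {U : Submodule F (ι → F)} (hU : ∀ x ∈ U, x ∈ perp hQ U → x = 0)
include hU

lemma finrank_inf_perp_of_le {S : Submodule F (ι → F)} (hS : S ≤ U) :
    finrank F ↥(U ⊓ perp hQ S) + finrank F S = finrank F U := by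
  have h1 : perp hQ (perp hQ U ⊔ S) = U ⊓ perp hQ S := by rw [perp_sup hQ, perp_perp hQ]
  have h2 := finrank_perp_add hQ (perp hQ U ⊔ S)
  have h3 := finrank_perp_add hQ U
  have hbot : perp hQ U ⊓ S = ⊥ := (Submodule.eq_bot_iff _).2 fun x hx => hU x (hS hx.2) hx.1
  have h4 := Submodule.finrank_sup_add_finrank_inf_eq (perp hQ U) S
  rw [h1] at h2
  rw [hbot, finrank_bot] at h4
  omega

lemma two_mul_finrank_le_of_le {S : Submodule F (ι → F)} (hS : S ≤ U) (hSts : IsTotallySingularQuad Q S) :
    2 * finrank F S ≤ finrank F U := by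
  have h1 := finrank_inf_perp_of_le hQ hU hS
  have h2 := Submodule.finrank_mono (le_inf hS (le_perp_self hQ hSts))
  omega

/-- Every value is attained, in any characteristic. -/
lemma exists_value_any (hd : 2 ≤ finrank F U) (c : F) : ∃ x ∈ U, Q x = c := by
  by_cases h2 : (2 : F) = 0
  · obtain ⟨a, ha, haQ⟩ := exists_q_ne_zero hQ hU (by omega)
    obtain ⟨s, hs⟩ := isSquare_of_two_eq_zero h2 (c / Q a)
    refine ⟨s • a, U.smul_mem _ ha, ?_⟩
    rw [q_smul hQ, sq, ← hs, div_mul_cancel₀ _ haQ]
  · exact exists_value hQ h2 hU hd c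

/-- In dimension at least four the affine hyperplanes of a non-singular vector take all values. -/
lemma exists_b_one_value (hd : 4 ≤ finrank F U) {x : ι → F} (hx : x ∈ U) (hxQ : Q x ≠ 0) (r : F) :
    ∃ y ∈ U, bform hQ x y = 1 ∧ Q y = r := by
  have hx0 : x ≠ 0 := fun h => hxQ (by rw [h, q_zero hQ])
  obtain ⟨c, hc, hc0, hcQ⟩ := exists_singular hQ (S := U ⊓ perp hQ (Submodule.span F {x})) (by
    have := finrank_le_inf_perp hQ U (Submodule.span F {x})
    rw [finrank_span_singleton hx0] at this
    omega)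
  have hxc : bform hQ x c = 0 := (mem_perp_span_singleton hQ).1 hc.2
  have hsplit : ∀ v ∈ U, ∀ w ∈ U, v ∉ Submodule.span F {w} → v ∉ Submodule.span F {w} ⊔ perp hQ U := by
    intro v hv w hw hn hm
    obtain ⟨p, hp, q, hq, e⟩ := Submodule.mem_sup.1 hm
    have hpU : p ∈ U := (Submodule.span_singleton_le_iff_mem _ _).2 hw hp
    have hq0 : q = 0 := hU q (by rw [eq_sub_of_add_eq' e]; exact U.sub_mem hv hpU) hq
    rw [hq0, add_zero] at e
    exact hn (e ▸ hp)
  obtain ⟨y₁, hy₁, hy₁c, hy₁x⟩ := exists_b_one_mem hQ (hsplit x hx c hc.1 fun h => hxQ (by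
    obtain ⟨s, rfl⟩ := Submodule.mem_span_singleton.1 h
    rw [q_smul hQ, hcQ, mul_zero]))
  obtain ⟨y₂, hy₂, hy₂x, hy₂c⟩ := exists_b_one_mem hQ (hsplit c hc.1 x hx fun h => by
    obtain ⟨s, rfl⟩ := Submodule.mem_span_singleton.1 h
    rw [q_smul hQ, mul_eq_zero] at hcQ
    exact hc0 (by rw [pow_eq_zero_iff two_ne_zero |>.1 (hcQ.resolve_right hxQ), zero_smul]))
  rw [mem_perp_span_singleton hQ] at hy₁c hy₂x
  set y := y₁ + y₂ with hy
  have hxy : bform hQ x y = 1 := by rw [hy, map_add, hy₁x, hy₂x, add_zero]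
  have hcy : bform hQ c y = 1 := by rw [hy, map_add, hy₁c, hy₂c, zero_add]
  refine ⟨y + (r - Q y) • c, U.add_mem (U.add_mem hy₁ hy₂) (U.smul_mem _ hc.1), ?_, ?_⟩
  · rw [map_add, map_smul, hxy, hxc, smul_zero, add_zero]
  · rw [q_add hQ, q_smul hQ, hcQ, map_smul, b_symm hQ y c, hcy, smul_eq_mul]; ring

omit hU in
/-- Hypotheses under which the non-singular vectors of a member are connected and spanning. -/
def Rich (Q : (ι → F) → F) (U : Submodule F (ι → F)) : Prop :=
  (finrank F U = 2 ∧ (4 ≤ Fintype.card F ∨ (Fintype.card F = 2 ∧ ∀ x ∈ U, Q x = 0 → x = 0))) ∨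
    (4 ≤ finrank F U ∧ (finrank F U = 4 → Fintype.card F = 2 → ¬ IsPlusTypeOn Q U))

omit hU in
lemma exists_b_pair_ne_zero {x y : ι → F} (hx : x ∉ perp hQ U) (hy : y ∉ perp hQ U) :
    ∃ v ∈ U, bform hQ v x ≠ 0 ∧ bform hQ v y ≠ 0 := by
  obtain ⟨v, hv, hvx⟩ := exists_mem_b_ne_zero hQ hx
  obtain ⟨w, hw, hwy⟩ := exists_mem_b_ne_zero hQ hy
  by_cases hvy : bform hQ v y = 0
  swap
  · exact ⟨v, hv, hvx, hvy⟩
  by_cases hwx : bform hQ w x = 0
  swap
  · exact ⟨w, hw, hwx, hwy⟩
  exact ⟨v + w, U.add_mem hv hw, by rw [map_add, LinearMap.add_apply, hwx, add_zero]; exact hvx,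
    by rw [map_add, LinearMap.add_apply, hvy, zero_add]; exact hwy⟩

omit hU in
lemma plane_span_of_indep (hd : finrank F U = 2) {u v : ι → F} (hu : u ∈ U) (hv : v ∈ U) (hu0 : u ≠ 0)
    (hind : v ∉ Submodule.span F {u}) : ∀ x ∈ U, ∃ a b : F, x = a • u + b • v := by
  intro x hx
  have hlt : Submodule.span F {u} < Submodule.span F {u} ⊔ Submodule.span F {v} :=
    lt_of_le_of_ne le_sup_left fun e => hind (e.ge (Submodule.mem_sup_right (Submodule.mem_span_singleton_self v)))
  have := Submodule.finrank_lt_finrank_of_lt hlt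
  rw [finrank_span_singleton hu0] at this
  have heq : Submodule.span F {u} ⊔ Submodule.span F {v} = U := Submodule.eq_of_le_of_finrank_le
    (sup_le ((Submodule.span_singleton_le_iff_mem _ _).2 hu) ((Submodule.span_singleton_le_iff_mem _ _).2 hv))
    (by omega)
  rw [← heq] at hx
  obtain ⟨p, hp, q, hq, rfl⟩ := Submodule.mem_sup.1 hx
  obtain ⟨a, rfl⟩ := Submodule.mem_span_singleton.1 hp
  obtain ⟨b, rfl⟩ := Submodule.mem_span_singleton.1 hq
  exact ⟨a, b, rfl⟩

/-- Two orthogonal non-singular vectors have a common non-singular non-neighbour. -/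
lemma exists_common_nonorth (hR : Rich Q U) {x y : ι → F} (hx : x ∈ U) (hy : y ∈ U) (hxQ : Q x ≠ 0)
    (hyQ : Q y ≠ 0) (hxy : bform hQ x y = 0) :
    ∃ z ∈ U, Q z ≠ 0 ∧ bform hQ z x ≠ 0 ∧ bform hQ z y ≠ 0 := by
  have hx0 : x ≠ 0 := fun h => hxQ (by rw [h, q_zero hQ])
  have hy0 : y ≠ 0 := fun h => hyQ (by rw [h, q_zero hQ])
  obtain ⟨v, hv, hvx, hvy⟩ := exists_b_pair_ne_zero hQ (fun h => hx0 (hU x hx h)) (fun h => hy0 (hU y hy h))
  by_cases hvQ : Q v = 0
  swap
  · exact ⟨v, hv, hvQ, hvx, hvy⟩
  by_contra hcon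
  push Not at hcon
  have hbad : ∀ w ∈ U, bform hQ w x ≠ 0 → bform hQ w y ≠ 0 → Q w = 0 := fun w hw h1 h2 => by
    by_contra h
    exact h2 (hcon w hw h h1)
  have hbx : ∀ s : F, bform hQ (v + s • x) x = bform hQ v x + s * (2 * Q x) ∧
      bform hQ (v + s • x) y = bform hQ v y := fun s => by
    simp [-bform_apply, b_self hQ, hxy]
  have hvs : ∀ s : F, Q (v + s • x) = s * (s * Q x + bform hQ v x) := fun s => by
    rw [q_add hQ, hvQ, q_smul hQ, map_smul, smul_eq_mul]; ring
  rcases hR with ⟨hd, hq⟩ | ⟨hd, hplus⟩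
  · rcases hq with hq | ⟨-, haniso⟩
    swap
    · exact hvx (by rw [haniso v hv hvQ, map_zero, LinearMap.zero_apply])
    classical
    -- a shift of `v` along `x` avoiding the three bad values
    obtain ⟨s, hs⟩ : ∃ s : F, s ∉ ({0, -bform hQ v x / Q x, -bform hQ v x / (2 * Q x)} : Finset F) := by
      by_contra hall
      push Not at hall
      have h1 := Finset.card_le_card (s := (Finset.univ : Finset F)) (fun m _ => hall m)
      have h3 := Finset.card_insert_le (0 : F) ({-bform hQ v x / Q x, -bform hQ v x / (2 * Q x)} : Finset F)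
      have h4 := Finset.card_le_two (a := -bform hQ v x / Q x) (b := -bform hQ v x / (2 * Q x))
      rw [Finset.card_univ] at h1
      omega
    simp only [Finset.mem_insert, Finset.mem_singleton, not_or] at hs
    obtain ⟨hs0, hs1, hs2⟩ := hs
    obtain ⟨e1, e2⟩ := hbx s
    have := hbad (v + s • x) (U.add_mem hv (U.smul_mem _ hx)) (fun h => by
      rw [e1] at h
      by_cases h20 : (2 : F) = 0
      · rw [h20, zero_mul, mul_zero, add_zero] at h; exact hvx h
      · exact hs2 ((eq_div_iff (mul_ne_zero h20 hxQ)).2 (by linear_combination h)))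
      (by rw [e2]; exact hvy)
    rw [hvs, mul_eq_zero] at this
    exact hs1 ((eq_div_iff hxQ).2 (by linear_combination this.resolve_left hs0))
  set H := U ⊓ perp hQ (Submodule.span F {x} ⊔ Submodule.span F {y}) with hH
  have hbh : ∀ h ∈ H, bform hQ x h = 0 ∧ bform hQ y h = 0 := fun h hh => (mem_perp_pair hQ).1 hh.2
  have hlin : ∀ w ∈ U, bform hQ w x ≠ 0 → bform hQ w y ≠ 0 → ∀ h ∈ H, Q h + bform hQ w h = 0 := by
    intro w hw h1 h2 h hh
    obtain ⟨a, b⟩ := hbh h hh
    have := hbad (w + h) (U.add_mem hw hh.1)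
      (by rw [map_add, LinearMap.add_apply, b_symm hQ h x, a, add_zero]; exact h1)
      (by rw [map_add, LinearMap.add_apply, b_symm hQ h y, b, add_zero]; exact h2)
    rw [q_add hQ, hbad w hw h1 h2] at this
    linear_combination this
  have hb0 : ∀ h ∈ H, ∀ h' ∈ H, bform hQ h h' = 0 := by
    intro h hh h' hh'
    have e := hlin v hv hvx hvy (h + h') (H.add_mem hh hh')
    rw [q_add hQ, map_add] at e
    linear_combination e - hlin v hv hvx hvy h hh - hlin v hv hvx hvy h' hh'
  have hdimH : finrank F U ≤ finrank F H + 2 := by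
    have h1 := finrank_le_inf_perp hQ U (Submodule.span F {x} ⊔ Submodule.span F {y})
    have h2 := finrank_span_pair_le hQ x y
    rw [hH]
    omega
  have h1 : finrank F ↥(U ⊓ perp hQ H) + finrank F H = finrank F U := finrank_inf_perp_of_le hQ hU inf_le_left
  have hHle : H ≤ U ⊓ perp hQ H := fun h hh => ⟨hh.1, fun h' hh' => hb0 h' hh' h hh⟩
  have h2 := Submodule.finrank_mono hHle
  have hd4 : finrank F U = 4 := by omega
  by_cases hq2 : Fintype.card F = 2
  · refine hplus hd4 hq2 ⟨Submodule.span F {x + y} ⊔ Submodule.span F {v}, sup_le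
      ((Submodule.span_singleton_le_iff_mem _ _).2 (U.add_mem hx hy))
      ((Submodule.span_singleton_le_iff_mem _ _).2 hv), ?_, ?_⟩
    · intro w hw
      obtain ⟨p, hp, q, hq, rfl⟩ := Submodule.mem_sup.1 hw
      obtain ⟨a, rfl⟩ := Submodule.mem_span_singleton.1 hp
      obtain ⟨b, rfl⟩ := Submodule.mem_span_singleton.1 hq
      have one : ∀ r : F, r ≠ 0 → r = 1 := fun r hr =>
        (CfsgLib.SmallField.eq_zero_or_one hq2 r).resolve_left hr
      have h20 := CfsgLib.SmallField.two_eq_zero_of_card_two hq2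
      have bxv : bform hQ x v = 1 := one _ (by rw [b_symm hQ]; exact hvx)
      have byv : bform hQ y v = 1 := one _ (by rw [b_symm hQ]; exact hvy)
      simp only [q_add hQ, q_smul hQ, map_smul, map_add, LinearMap.smul_apply, LinearMap.add_apply, hvQ, hxy,
        one _ hxQ, one _ hyQ, bxv, byv, smul_eq_mul]
      linear_combination (a ^ 2 + a * b) * h20
    · have hd0 : x + y ≠ 0 := fun h => by
        have hle : Submodule.span F {x} ⊔ Submodule.span F {y} ≤ Submodule.span F {x} :=
          sup_le le_rfl ((Submodule.span_singleton_le_iff_mem _ _).2 (by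
            rw [eq_neg_of_add_eq_zero_right h]; exact neg_mem (Submodule.mem_span_singleton_self x)))
        have h5 := Submodule.finrank_mono hle
        have h6 := finrank_le_inf_perp hQ U (Submodule.span F {x} ⊔ Submodule.span F {y})
        rw [finrank_span_singleton hx0] at h5
        rw [← hH] at h6
        omega
      have hv0 : v ∉ Submodule.span F {x + y} := fun h => by
        obtain ⟨s, rfl⟩ := Submodule.mem_span_singleton.1 h
        have h20 := CfsgLib.SmallField.two_eq_zero_of_card_two hq2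
        rw [map_smul, LinearMap.smul_apply, map_add, LinearMap.add_apply, b_self hQ, h20, zero_mul,
          b_symm hQ y x, hxy] at hvx
        simp at hvx
      have hlt : Submodule.span F {x + y} < Submodule.span F {x + y} ⊔ Submodule.span F {v} :=
        lt_of_le_of_ne le_sup_left fun e => hv0 (e.ge (Submodule.mem_sup_right (Submodule.mem_span_singleton_self v)))
      have h3 := Submodule.finrank_lt_finrank_of_lt hlt
      have h4 := finrank_span_pair_le hQ (x + y) v
      rw [finrank_span_singleton hd0] at h3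
      omega
  · obtain ⟨s, hs0, hs1⟩ := exists_ne_zero_ne (by have := Fintype.one_lt_card (α := F); omega) (1 : F)
    have hts : ∀ h ∈ H, Q h = 0 := by
      intro h hh
      have e := hlin v hv hvx hvy (s • h) (H.smul_mem _ hh)
      rw [q_smul hQ, map_smul, smul_eq_mul] at e
      have : s * (s - 1) * Q h = 0 := by linear_combination e - s * hlin v hv hvx hvy h hh
      exact (mul_eq_zero.1 this).resolve_left (mul_ne_zero hs0 (sub_ne_zero.2 hs1))
    have hHeq : H = U ⊓ perp hQ H := Submodule.eq_of_le_of_finrank_le hHle (by omega)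
    have hvH : v ∈ H := by
      rw [hHeq]
      refine ⟨hv, fun h hh => ?_⟩
      have e := hlin v hv hvx hvy h hh
      rw [hts h hh, zero_add] at e
      rw [b_symm hQ]; exact e
    exact hvx (by rw [b_symm hQ]; exact (hbh v hvH).1)

/-- A subspace containing the non-singular vectors of a member contains the member. -/
lemma le_of_nonsingular_mem (hR : Rich Q U) {A : Submodule F (ι → F)} (hA : ∀ x ∈ U, Q x ≠ 0 → x ∈ A) :
    U ≤ A := by
  intro v hv
  by_cases hv0 : v = 0
  · rw [hv0]; exact A.zero_mem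
  by_cases hvQ : Q v = 0
  swap
  · exact hA v hv hvQ
  have hd : 2 ≤ finrank F U := by rcases hR with ⟨h, -⟩ | ⟨h, -⟩ <;> omega
  suffices ∃ x ∈ U, Q x ≠ 0 ∧ Q (x + v) ≠ 0 by
    obtain ⟨x, hx, hxQ, hxv⟩ := this
    have := A.sub_mem (hA _ (U.add_mem hx hv) hxv) (hA x hx hxQ)
    rwa [add_sub_cancel_left] at this
  obtain ⟨x, hx, hxQ⟩ := exists_q_ne_zero hQ hU (by omega)
  by_cases hq : 3 ≤ Fintype.card F
  · by_cases hb : bform hQ x v = 0
    · exact ⟨x, hx, hxQ, by rwa [q_add hQ, hvQ, hb, add_zero, add_zero]⟩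
    · obtain ⟨s, hs0, hs⟩ := exists_ne_zero_ne hq (-bform hQ x v / Q x)
      refine ⟨s • x, U.smul_mem _ hx, by rw [q_smul hQ]; exact mul_ne_zero (pow_ne_zero 2 hs0) hxQ, ?_⟩
      rw [q_add hQ, q_smul hQ, hvQ, map_smul, LinearMap.smul_apply, smul_eq_mul]
      intro h0
      refine hs ((eq_div_iff hxQ).2 ?_)
      have : s * (s * Q x + bform hQ x v) = 0 := by linear_combination h0
      linear_combination (mul_eq_zero.1 this).resolve_left hs0
  · have hq2 : Fintype.card F = 2 := by have := Fintype.one_lt_card (α := F); omega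
    by_contra hcon
    push Not at hcon
    have hts : IsTotallySingularQuad Q (U ⊓ perp hQ (Submodule.span F {v})) := by
      intro w hw
      by_contra hwQ
      apply hwQ
      have := hcon w hw.1 hwQ
      rwa [q_add hQ, hvQ, b_symm hQ, (mem_perp_span_singleton hQ).1 hw.2, add_zero, add_zero] at this
    have h1 := two_mul_finrank_le_of_le hQ hU inf_le_left hts
    have h2 := finrank_le_inf_perp hQ U (Submodule.span F {v})
    rw [finrank_span_singleton hv0] at h2
    rcases hR with ⟨-, h | ⟨-, h⟩⟩ | ⟨h, -⟩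
    · omega
    · exact hv0 (h v hv hvQ)
    · omega

end CfsgLib.OrthGeo
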