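import Cfsg.Agent.OrthGeo.NondegAny
import Cfsg.Agent.Classical.DecompProj
import Cfsg.Agent.Eq.Def_ClassicalGeometry

/-! Stabilisers of orthogonal decompositions with very small members are not maximal in Omega: the members
carry a canonical finer structure, whose stabiliser lies strictly between. -/

set_option autoImplicit false
set_option linter.unusedSectionVars false

namespace CfsgLib.OrthGeo

open Cfsg Cfsg.Geo Module CfsgLib.DecompProj
open scoped Matrix MatrixGroups

variable {ι : Type} [Fintype ι] [DecidableEq ι] {F : Type*} [Field F] [Finite F]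
variable {Q : (ι → F) → F} (hQ : IsNondegenerateQuadraticForm Q)
variable {t k : ℕ} {D : Fin t → Submodule F (ι → F)}

omit hQ in
lemma mem_stabilizing_of_forward {g : GL ι F} {X : Set (ι → F)}
    (h : ∀ x ∈ X, (g : Matrix ι ι F) *ᵥ x ∈ X) : g ∈ stabilizing (glToMat ι F) X := by
  refine fun v => ⟨h v, fun hv => ?_⟩
  have hinj : Set.InjOn (fun x : ι → F => (g : Matrix ι ι F) *ᵥ x) X := fun a _ b _ hab => by
    rw [← inv_mulVec_cancel g a, ← inv_mulVec_cancel g b, show (g : Matrix ι ι F) *ᵥ a = _ from hab]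
  have heq : (fun x : ι → F => (g : Matrix ι ι F) *ᵥ x) '' X = X :=
    Set.eq_of_subset_of_ncard_le (Set.image_subset_iff.2 h) (by rw [hinj.ncard_image]) (Set.toFinite X)
  obtain ⟨w, hw, hwv⟩ : (g : Matrix ι ι F) *ᵥ v ∈ (fun x : ι → F => (g : Matrix ι ι F) *ᵥ x) '' X := by rw [heq]; exact hv
  replace hwv : (g : Matrix ι ι F) *ᵥ w = (g : Matrix ι ι F) *ᵥ v := hwv
  have : w = v := by
    rw [← inv_mulVec_cancel g w, ← inv_mulVec_cancel g v]
    exact congrArg _ hwv
  exact this ▸ hw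

/-- The vectors of a given value in the members of a decomposition. -/
def valueSet (Q : (ι → F) → F) (D : Fin t → Submodule F (ι → F)) (l : F) : Set (ι → F) :=
  {v | Q v = l ∧ ∃ i, v ∈ D i}

omit hQ in
lemma valueSet_forward {g : GL ι F} (hg : g ∈ Cfsg.isometryGroup F Q) (hD : g ∈ decompositionStabilizer D)
    {l : F} : ∀ x ∈ valueSet Q D l, (g : Matrix ι ι F) *ᵥ x ∈ valueSet Q D l := by
  rintro x ⟨hx, i, hi⟩
  exact ⟨by rw [mem_isometryGroup.1 hg, hx], image_mem_of_stabilizer hD hi⟩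

omit hQ in
/-- The generic sandwich. -/
lemma exists_between_of_stabilizing {X : Set (ι → F)}
    (hS : ∀ g ∈ decompositionStabilizer D, g ∈ omegaGL Q → ∀ x ∈ X, (g : Matrix ι ι F) *ᵥ x ∈ X)
    {h : GL ι F} (hh : h ∈ omegaGL Q) (hhX : ∀ x ∈ X, (h : Matrix ι ι F) *ᵥ x ∈ X)
    (hhD : h ∉ decompositionStabilizer D) {g : GL ι F} (hg : g ∈ omegaGL Q) {a : ι → F} (ha : a ∈ X)
    (hga : (g : Matrix ι ι F) *ᵥ a ∉ X) :
    ∃ K : Subgroup (GL ι F), decompositionStabilizer D ⊓ omegaGL Q < K ∧ K < omegaGL Q := by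
  refine ⟨stabilizing (glToMat ι F) X ⊓ omegaGL Q, lt_of_le_not_ge
    (fun x hx => ⟨mem_stabilizing_of_forward (hS x hx.1 hx.2), hx.2⟩) fun hle => hhD
      (hle ⟨mem_stabilizing_of_forward hhX, hh⟩).1, lt_of_le_not_ge inf_le_right fun hle => ?_⟩
  exact hga (((hle hg).1 a).1 ha)

include hQ

section
variable (hD : IsOrthogonalMDecomposition Q k D)
include hD

lemma member_b_eq_zero {i j : Fin t} (hij : i ≠ j) {x y : ι → F} (hx : x ∈ D i) (hy : y ∈ D j) :
    bform hQ x y = 0 :=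
  hD.decomp.orthogonal i j hij x hx y hy

lemma member_radical_free (i : Fin t) : ∀ x ∈ D i, x ∈ perp hQ (D i) → x = 0 :=
  radical_free_of_nondegenerateOn hQ (hD.decomp.nondegenerate i)

lemma member_ne {i j : Fin t} (hij : i ≠ j) {x : ι → F} (hx : x ∈ D i) (hx' : x ∈ D j) : x = 0 :=
  Submodule.disjoint_def.1 (hD.decomp.decomp.indep.pairwiseDisjoint hij) x hx hx'

omit hD in
lemma q_sum_orth {α : Type*} [DecidableEq α] (s : Finset α) (f : α → ι → F)
    (h : ∀ i ∈ s, ∀ j ∈ s, i ≠ j → bform hQ (f i) (f j) = 0) : Q (∑ i ∈ s, f i) = ∑ i ∈ s, Q (f i) := by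
  induction s using Finset.induction_on with
  | empty => simp [q_zero hQ]
  | insert a s ha ih =>
    rw [Finset.sum_insert ha, Finset.sum_insert ha, q_add hQ,
      ih (fun i hi j hj => h i (Finset.mem_insert_of_mem hi) j (Finset.mem_insert_of_mem hj)), map_sum,
      Finset.sum_eq_zero (fun j hj => h a (Finset.mem_insert_self a s) j (Finset.mem_insert_of_mem hj)
        (fun e => ha (e ▸ hj))), add_zero]

/-- Members in which the vectors of some value form a frame: refine the decomposition into that frame. -/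
theorem frame_decomp_not_maximal (hn : 5 ≤ Fintype.card ι) (h2 : (2 : F) ≠ 0) (hk : 2 ≤ k) (ht : 4 ≤ t)
    {q : ℕ} (hq : (q : F) = 0) (hq1 : 1 ≤ q) (htq : q + 1 ≤ t) {l : F} (hl : l ≠ 0)
    (hex : ∀ i, ∃ a ∈ D i, Q a = l)
    (hfr : ∀ i, ∀ v ∈ D i, ∀ w ∈ D i, Q v = l → Q w = l → w = v ∨ w = -v ∨ bform hQ v w = 0) :
    ∃ K : Subgroup (GL ι F), decompositionStabilizer D ⊓ omegaGL Q < K ∧ K < omegaGL Q := by
  classical
  choose e he heQ using hex
  have hdec := hD.decomp.decomp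
  have hee : ∀ i j, i ≠ j → bform hQ (e i) (e j) = 0 := fun i j hij => member_b_eq_zero hQ hD hij (he i) (he j)
  have he0 : ∀ i, e i ≠ 0 := fun i h => hl (by rw [← heQ i, h, q_zero hQ])
  let idx : Fin 4 → Fin t := fun i => ⟨i.1, by omega⟩
  have hidx : ∀ i j, i ≠ j → idx i ≠ idx j := fun i j hij h =>
    hij (Fin.ext (by simpa [idx] using congrArg Fin.val h))
  have hdiff : ∀ i j, i ≠ j → Q (e i - e j) = 2 * l := fun i j hij => by
    rw [q_sub hQ, hee i j hij, heQ, heQ]; ring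
  have hne : ∀ i j, i ≠ j → Q (e i - e j) ≠ 0 := fun i j hij => by
    rw [hdiff i j hij]; exact mul_ne_zero h2 hl
  have hswap : ∀ i j (hij : i ≠ j), ∀ x ∈ valueSet Q D l,
      (reflection hQ (hne i j hij) : Matrix ι ι F) *ᵥ x ∈ valueSet Q D l := by
    rintro i j hij x ⟨hx, m, hm⟩
    refine ⟨by rw [mem_isometryGroup.1 (reflection_mem hQ _), hx], ?_⟩
    rw [reflection_mulVec hQ, hdiff i j hij]
    have hc : (2 * l) ≠ 0 := mul_ne_zero h2 hl
    by_cases hi : bform hQ (e i) x = 0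
    · by_cases hj : bform hQ (e j) x = 0
      · refine ⟨m, ?_⟩
        rw [map_sub, LinearMap.sub_apply, hi, hj, sub_zero, mul_zero, zero_smul, sub_zero]; exact hm
      have hmj : m = j := by_contra fun h => hj (member_b_eq_zero hQ hD (Ne.symm h) (he j) hm)
      subst hmj
      rcases hfr _ _ (he m) x hm (heQ m) hx with rfl | rfl | h
      · refine ⟨i, ?_⟩
        rw [map_sub, LinearMap.sub_apply, hi, b_self hQ, heQ, zero_sub, mul_neg, inv_mul_cancel₀ hc,
          neg_smul, one_smul, sub_neg_eq_add, add_sub_cancel]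
        exact he i
      · refine ⟨i, ?_⟩
        rw [map_neg] at hi ⊢
        rw [map_sub, LinearMap.sub_apply, neg_sub, hee i m hij, b_self hQ, heQ, sub_zero, inv_mul_cancel₀ hc,
          one_smul, show -e m - (e i - e m) = -e i by abel]
        exact neg_mem (he i)
      · exact absurd h hj
    · have hmi : m = i := by_contra fun h => hi (member_b_eq_zero hQ hD (Ne.symm h) (he i) hm)
      subst hmi
      rcases hfr _ _ (he m) x hm (heQ m) hx with rfl | rfl | h
      · refine ⟨j, ?_⟩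
        rw [map_sub, LinearMap.sub_apply, hee j m (Ne.symm hij), b_self hQ, heQ, sub_zero, inv_mul_cancel₀ hc,
          one_smul, sub_sub_cancel]
        exact he j
      · refine ⟨j, ?_⟩
        rw [map_neg, map_sub, LinearMap.sub_apply, hee j m (Ne.symm hij), b_self hQ, heQ, sub_zero, mul_neg,
          inv_mul_cancel₀ hc, neg_smul, one_smul, show -e m - -(e m - e j) = -e j by abel]
        exact neg_mem (he j)
      · exact absurd h hi
  set a := e (idx 0) with ha
  set b := e (idx 1) with hb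
  have h01 : idx 0 ≠ idx 1 := hidx 0 1 (by decide)
  have h23 : idx 2 ≠ idx 3 := hidx 2 3 (by decide)
  set h := reflection hQ (hne _ _ h01) * reflection hQ (hne _ _ h23) with hh
  have hhmul : ∀ x, (h : Matrix ι ι F) *ᵥ x = (reflection hQ (hne _ _ h01) : Matrix ι ι F) *ᵥ
      ((reflection hQ (hne _ _ h23) : Matrix ι ι F) *ᵥ x) := fun x => by
    rw [Matrix.mulVec_mulVec]; rfl
  obtain ⟨S, -, hS⟩ := Finset.exists_subset_card_eq (s := (Finset.univ : Finset (Fin t))) (n := q + 1)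
    (by rw [Finset.card_univ, Fintype.card_fin]; exact htq)
  set y := ∑ i ∈ S, e i with hy
  have hyQ : Q y = l := by
    rw [hy, q_sum_orth hQ S e (fun i _ j _ hij => hee i j hij), Finset.sum_congr rfl (fun i _ => heQ i),
      Finset.sum_const, hS, nsmul_eq_mul, Nat.cast_add, hq, Nat.cast_one, zero_add, one_mul]
  have hyproj : ∀ i ∈ S, proj hdec i y ≠ 0 := by
    intro i hi
    rw [hy, map_sum, Finset.sum_congr rfl (fun j _ => proj_of_mem hdec (he j) i), Finset.sum_ite_eq,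
      if_pos hi]
    exact he0 i
  obtain ⟨i₁, hi₁, i₂, hi₂, h12⟩ := Finset.one_lt_card.1 (show 1 < S.card by omega)
  have hy0 : y ≠ 0 := fun h0 => hl (by rw [← hyQ, h0, q_zero hQ])
  obtain ⟨g, hg, hga⟩ := exists_map_value hQ hn (he0 (idx 0)) hy0 (by rw [heQ, hyQ])
  refine exists_between_of_stabilizing (X := valueSet Q D l)
    (fun x hx hx' => valueSet_forward (omegaGL_le hx') hx)
    (h := h) (reflection_pair_mem_omega_of_eq hQ hn _ _ (by rw [hdiff _ _ h01, hdiff _ _ h23]))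
    (fun x hx => by rw [hhmul]; exact hswap _ _ h01 _ (hswap _ _ h23 _ hx)) (fun hst => ?_)
    (eichlerGroup_le_omega hQ hn hg) (a := a) ⟨heQ _, idx 0, he _⟩ ?_
  · obtain ⟨σ, hσ⟩ := hst
    have hfix : ∀ x ∈ D (idx 0), (reflection hQ (hne _ _ h23) : Matrix ι ι F) *ᵥ x = x := fun x hx => by
      rw [reflection_mulVec hQ, map_sub, LinearMap.sub_apply,
        member_b_eq_zero hQ hD (hidx 2 0 (by decide)) (he _) hx,
        member_b_eq_zero hQ hD (hidx 3 0 (by decide)) (he _) hx]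
      simp
    have hhab : (h : Matrix ι ι F) *ᵥ a = b := by
      rw [hhmul, hfix a (he _), reflection_mulVec hQ, hdiff _ _ h01, map_sub, LinearMap.sub_apply,
        hee (idx 1) (idx 0) (Ne.symm h01), b_self hQ, heQ, sub_zero, inv_mul_cancel₀ (mul_ne_zero h2 hl),
        one_smul, ← ha, ← hb, sub_sub_cancel]
    have hmaps : ∀ x ∈ D (idx 0), (h : Matrix ι ι F) *ᵥ x ∈ D (σ (idx 0)) := fun x hx =>
      hσ (idx 0) ▸ ⟨x, hx, Matrix.toLin'_apply _ x⟩
    have hσ0 : σ (idx 0) = idx 1 := by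
      by_contra hne'
      have h' := hmaps a (he _)
      rw [hhab] at h'
      exact he0 (idx 1) (member_ne hQ hD hne' h' (he _))
    have hdim := finrank_le_inf_perp hQ (D (idx 0)) (Submodule.span F {a})
    rw [hdec.finrank_eq, finrank_span_singleton (he0 (idx 0))] at hdim
    obtain ⟨v, hv, hv0⟩ := Submodule.exists_mem_ne_zero_of_ne_bot
      (p := D (idx 0) ⊓ perp hQ (Submodule.span F {a})) (fun h0 => by rw [h0, finrank_bot] at hdim; omega)
    have hhv : (h : Matrix ι ι F) *ᵥ v = v := by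
      rw [hhmul, hfix v hv.1, reflection_mulVec hQ, map_sub, LinearMap.sub_apply,
        (mem_perp_span_singleton hQ).1 hv.2, member_b_eq_zero hQ hD (Ne.symm h01) (he _) hv.1]
      simp
    exact hv0 (member_ne hQ hD h01 hv.1 (hσ0 ▸ hhv ▸ hmaps v hv.1))
  · rintro ⟨-, j, hj⟩
    rw [ha, hga] at hj
    exact not_mem_of_two hdec h12 (hyproj _ hi₁) (hyproj _ hi₂) j hj

/-- Planes in characteristic two whose vectors of value one span a rational structure. -/
theorem rational_decomp_not_maximal (hn : 5 ≤ Fintype.card ι) (h2 : (2 : F) = 0) (ht : 3 ≤ t)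
    (C : AddSubgroup F) (hC : ∀ c ∈ C, c = 0 ∨ c = 1)
    (hex : ∀ i, ∃ a ∈ D i, Q a = 1)
    (hb : ∀ i, ∀ v ∈ D i, ∀ w ∈ D i, Q v = 1 → Q w = 1 → bform hQ v w ∈ C)
    (hz : ∀ i, ∀ a ∈ D i, Q a = 1 → ∃ z ∈ D i, Q z = 0 ∧ bform hQ a z ∉ C) :
    ∃ K : Subgroup (GL ι F), decompositionStabilizer D ⊓ omegaGL Q < K ∧ K < omegaGL Q := by
  choose e he heQ using hex
  have hdec := hD.decomp.decomp
  let idx : Fin 3 → Fin t := fun i => ⟨i.1, by omega⟩
  have hidx : ∀ i j, i ≠ j → idx i ≠ idx j := fun i j hij h =>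
    hij (Fin.ext (by simpa [idx] using congrArg Fin.val h))
  have hee : ∀ i j, i ≠ j → bform hQ (e i) (e j) = 0 := fun i j hij => member_b_eq_zero hQ hD hij (he i) (he j)
  have he0 : ∀ i, e i ≠ 0 := fun i h => one_ne_zero (α := F) (by rw [← heQ i, h, q_zero hQ])
  set R := AddSubgroup.closure (valueSet Q D 1) with hR
  have hX : ∀ i, e i ∈ R := fun i => AddSubgroup.subset_closure ⟨heQ i, i, he i⟩
  have hbR : ∀ r ∈ R, ∀ s ∈ R, bform hQ r s ∈ C := by
    intro r hr s hs
    induction hr using AddSubgroup.closure_induction with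
    | mem x hx =>
      induction hs using AddSubgroup.closure_induction with
      | mem y hy =>
        obtain ⟨hxQ, i, hi⟩ := hx
        obtain ⟨hyQ, j, hj⟩ := hy
        by_cases hij : i = j
        · subst hij; exact hb i x hi y hj hxQ hyQ
        · rw [member_b_eq_zero hQ hD hij hi hj]; exact C.zero_mem
      | zero => rw [map_zero]; exact C.zero_mem
      | add _ _ _ _ h1 h2 => rw [map_add]; exact C.add_mem h1 h2
      | neg _ _ h1 => rw [map_neg]; exact C.neg_mem h1
    | zero => rw [map_zero, LinearMap.zero_apply]; exact C.zero_mem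
    | add _ _ _ _ h1 h2 => rw [map_add, LinearMap.add_apply]; exact C.add_mem h1 h2
    | neg _ _ h1 => rw [map_neg, LinearMap.neg_apply]; exact C.neg_mem h1
  have h01 : idx 0 ≠ idx 1 := hidx 0 1 (by decide)
  have h02 : idx 0 ≠ idx 2 := hidx 0 2 (by decide)
  have h12 : idx 1 ≠ idx 2 := hidx 1 2 (by decide)
  set u := e (idx 0) + e (idx 1) with hu
  set w := e (idx 2) with hw
  have huQ : Q u = 0 := by
    rw [hu, q_add hQ, heQ, heQ, hee _ _ h01, add_zero]; linear_combination h2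
  have huw : bform hQ u w = 0 := by
    rw [hu, hw, map_add, LinearMap.add_apply, hee _ _ h02, hee _ _ h12, add_zero]
  obtain ⟨z, hzD, hzQ, hzb⟩ := hz _ _ (he (idx 0)) (heQ _)
  have hyQ : Q (e (idx 1) + z) = 1 := by
    rw [q_add hQ, heQ, hzQ, member_b_eq_zero hQ hD (Ne.symm h01) (he _) hzD]; simp
  have hy0 : e (idx 1) + z ≠ 0 := fun h0 => one_ne_zero (α := F) (by rw [← hyQ, h0, q_zero hQ])
  obtain ⟨g, hg, hga⟩ := exists_map_value hQ hn (he0 (idx 0)) hy0 (by rw [heQ, hyQ])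
  refine exists_between_of_stabilizing (X := (R : Set (ι → F))) (fun g hgD hgΩ x hx => ?_)
    (h := eichler hQ huQ huw) (eichler_mem_omega hQ hn huQ huw) (fun r hr => ?_) (fun hst => ?_)
    (eichlerGroup_le_omega hQ hn hg) (a := e (idx 0)) (hX _) ?_
  · induction hx using AddSubgroup.closure_induction with
    | mem x hx => exact AddSubgroup.subset_closure (valueSet_forward (omegaGL_le hgΩ) hgD x hx)
    | zero => rw [Matrix.mulVec_zero]; exact R.zero_mem
    | add _ _ _ _ h1 h2 => rw [Matrix.mulVec_add]; exact R.add_mem h1 h2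
    | neg _ _ h1 => rw [Matrix.mulVec_neg]; exact R.neg_mem h1
  · have hu' : u ∈ R := R.add_mem (hX _) (hX _)
    have hs : ∀ c ∈ C, ∀ v ∈ R, c • v ∈ R := fun c hc v hv => by
      rcases hC c hc with rfl | rfl
      · rw [zero_smul]; exact R.zero_mem
      · rw [one_smul]; exact hv
    rw [eichler_mulVec hQ, hw, heQ, one_mul]
    exact R.sub_mem (R.sub_mem (R.add_mem hr (hs _ (hbR _ (hX _) _ hr) _ hu'))
      (hs _ (hbR _ hu' _ hr) _ (hX _))) (hs _ (hbR _ hu' _ hr) _ hu')
  · obtain ⟨x, hx, hxb⟩ := exists_mem_b_ne_zero hQ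
      (fun h => he0 (idx 0) (member_radical_free hQ hD _ _ (he _) h))
    obtain ⟨j, hj⟩ := image_mem_of_stabilizer hst hx
    have hb' : bform hQ u x = bform hQ x (e (idx 0)) := by
      rw [hu, map_add, LinearMap.add_apply, member_b_eq_zero hQ hD (Ne.symm h01) (he _) hx, add_zero, b_symm hQ]
    rw [eichler_mulVec hQ, hb', hw, member_b_eq_zero hQ hD (Ne.symm h02) (he _) hx, zero_smul, add_zero, heQ,
      one_mul] at hj
    refine not_mem_of_two hdec h12 ?_ ?_ j hj <;>
      simp [-bform_apply, hu, map_sub, map_add, map_smul, proj_of_mem hdec hx, proj_of_mem hdec (he _), hxb, he0,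
        h01, h02, h12, Ne.symm h01, Ne.symm h02, Ne.symm h12]
  · intro hmem
    rw [hga] at hmem
    apply hzb
    have h := hbR _ (hX (idx 0)) _ hmem
    rwa [map_add, hee _ _ h01, zero_add] at h

/-- Four-dimensional members over two elements, split into pairs of minus planes. -/
theorem planes_decomp_not_maximal (hn : 5 ≤ Fintype.card ι) (h2 : (2 : F) = 0) (hk : 3 ≤ k) (ht : 3 ≤ t)
    (hex : ∀ i, ∃ v ∈ D i, ∃ w ∈ D i, Q v = 1 ∧ Q w = 1 ∧ bform hQ v w = 1)
    (hdi : ∀ i, ∀ v ∈ D i, ∀ w ∈ D i, ∀ x ∈ D i, Q v = 1 → Q w = 1 → bform hQ v w = 1 → Q x = 1 →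
      x ∈ Submodule.span F {v} ⊔ Submodule.span F {w} ∨ (bform hQ v x = 0 ∧ bform hQ w x = 0)) :
    ∃ K : Subgroup (GL ι F), decompositionStabilizer D ⊓ omegaGL Q < K ∧ K < omegaGL Q := by
  choose e he f hf heQ hfQ hef using hex
  have hdec := hD.decomp.decomp
  let idx : Fin 3 → Fin t := fun i => ⟨i.1, by omega⟩
  have hidx : ∀ i j, i ≠ j → idx i ≠ idx j := fun i j hij h =>
    hij (Fin.ext (by simpa [idx] using congrArg Fin.val h))
  have he0 : ∀ i, e i ≠ 0 := fun i h => one_ne_zero (α := F) (by rw [← heQ i, h, q_zero hQ])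
  have h01 : idx 0 ≠ idx 1 := hidx 0 1 (by decide)
  have h02 : idx 0 ≠ idx 2 := hidx 0 2 (by decide)
  have h12 : idx 1 ≠ idx 2 := hidx 1 2 (by decide)
  have hneg : (-1 : F) = 1 := by linear_combination (-1 : F) * h2
  have h11 : (1 : F) + 1 = 0 := by linear_combination h2
  set u := e (idx 0) + e (idx 1) with hu
  set w := f (idx 0) + f (idx 1) with hw
  have z01 : ∀ {x y : ι → F}, x ∈ D (idx 0) → y ∈ D (idx 1) → bform hQ x y = 0 ∧ bform hQ y x = 0 :=
    fun hx hy => ⟨member_b_eq_zero hQ hD h01 hx hy, member_b_eq_zero hQ hD (Ne.symm h01) hy hx⟩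
  have huQ : Q u = 0 := by rw [hu, q_add hQ, heQ, heQ, (z01 (he _) (he _)).1, add_zero, h11]
  have hwQ : Q w = 0 := by rw [hw, q_add hQ, hfQ, hfQ, (z01 (hf _) (hf _)).1, add_zero, h11]
  have huw : bform hQ u w = 0 := by
    simp [-bform_apply, hu, hw, hef, (z01 (he _) (hf _)).1, (z01 (hf _) (he _)).2, h11]
  have hE : ∀ x, (eichler hQ huQ huw : Matrix ι ι F) *ᵥ x = x + bform hQ w x • u - bform hQ u x • w := by
    intro x; rw [eichler_mulVec hQ, hwQ, zero_mul, zero_smul, sub_zero]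
  have hfe : ∀ i, bform hQ (f i) (e i) = 1 := fun i => by rw [b_symm hQ, hef]
  have hee0 : ∀ i, bform hQ (e i) (e i) = 0 := fun i => by rw [b_self hQ, h2, zero_mul]
  have hff0 : ∀ i, bform hQ (f i) (f i) = 0 := fun i => by rw [b_self hQ, h2, zero_mul]
  have hEe0 : (eichler hQ huQ huw : Matrix ι ι F) *ᵥ e (idx 0) = e (idx 1) := by
    rw [hE, show bform hQ w (e (idx 0)) = 1 by simp [-bform_apply, hw, hfe, (z01 (he _) (hf _)).2],
      show bform hQ u (e (idx 0)) = 0 by simp [-bform_apply, hu, hee0, (z01 (he _) (he _)).2], hu]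
    rw [show e (idx 0) + (1 : F) • (e (idx 0) + e (idx 1)) - (0 : F) • w
      = (2 : F) • e (idx 0) + e (idx 1) by module, h2]
    simp
  have hEe1 : (eichler hQ huQ huw : Matrix ι ι F) *ᵥ e (idx 1) = e (idx 0) := by
    rw [hE, show bform hQ w (e (idx 1)) = 1 by simp [-bform_apply, hw, hfe, (z01 (hf _) (he _)).1],
      show bform hQ u (e (idx 1)) = 0 by simp [-bform_apply, hu, hee0, (z01 (he _) (he _)).1], hu]
    rw [show e (idx 1) + (1 : F) • (e (idx 0) + e (idx 1)) - (0 : F) • w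
      = (2 : F) • e (idx 1) + e (idx 0) by module, h2]
    simp
  have hEf0 : (eichler hQ huQ huw : Matrix ι ι F) *ᵥ f (idx 0) = -f (idx 1) := by
    rw [hE, show bform hQ w (f (idx 0)) = 0 by simp [-bform_apply, hw, hff0, (z01 (hf _) (hf _)).2],
      show bform hQ u (f (idx 0)) = 1 by simp [-bform_apply, hu, hef, (z01 (hf _) (he _)).2], hw]
    module
  have hEf1 : (eichler hQ huQ huw : Matrix ι ι F) *ᵥ f (idx 1) = -f (idx 0) := by
    rw [hE, show bform hQ w (f (idx 1)) = 0 by simp [-bform_apply, hw, hff0, (z01 (hf _) (hf _)).1],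
      show bform hQ u (f (idx 1)) = 1 by simp [-bform_apply, hu, hef, (z01 (he _) (hf _)).1], hw]
    module
  have hfix : ∀ x, bform hQ w x = 0 → bform hQ u x = 0 → (eichler hQ huQ huw : Matrix ι ι F) *ᵥ x = x :=
    fun x h1 h2 => by rw [hE, h1, h2]; simp
  have hxy : Q (e (idx 0) + e (idx 1) + e (idx 2)) = 1 := by
    rw [← hu, q_add hQ, huQ, heQ, hu]
    simp [-bform_apply, member_b_eq_zero hQ hD h02 (he _) (he _), member_b_eq_zero hQ hD h12 (he _) (he _)]
  have hy0 : e (idx 0) + e (idx 1) + e (idx 2) ≠ 0 := fun h0 =>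
    one_ne_zero (α := F) (by rw [← hxy, h0, q_zero hQ])
  obtain ⟨g, hg, hga⟩ := exists_map_value hQ hn (he0 (idx 0)) hy0 (by rw [heQ, hxy])
  refine exists_between_of_stabilizing (X := valueSet Q D 1)
    (fun x hx hx' => valueSet_forward (omegaGL_le hx') hx)
    (h := eichler hQ huQ huw) (eichler_mem_omega hQ hn huQ huw) ?_ (fun hst => ?_)
    (eichlerGroup_le_omega hQ hn hg) (a := e (idx 0)) ⟨heQ _, idx 0, he _⟩ ?_
  · rintro x ⟨hx, i, hi⟩
    refine ⟨by rw [mem_isometryGroup.1 (eichler_mem_isometryGroup hQ huQ huw), hx], ?_⟩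
    by_cases hi0 : i = idx 0
    · subst hi0
      rcases hdi _ _ (he _) _ (hf _) x hi (heQ _) (hfQ _) (hef _) hx with hsp | ⟨h1, h2⟩
      · obtain ⟨p, hp, p', hp', rfl⟩ := Submodule.mem_sup.1 hsp
        obtain ⟨c, rfl⟩ := Submodule.mem_span_singleton.1 hp
        obtain ⟨d, rfl⟩ := Submodule.mem_span_singleton.1 hp'
        refine ⟨idx 1, ?_⟩
        rw [Matrix.mulVec_add, Matrix.mulVec_smul, Matrix.mulVec_smul, hEe0, hEf0]
        exact add_mem ((D _).smul_mem c (he _)) ((D _).smul_mem d (neg_mem (hf _)))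
      · exact ⟨idx 0, by rwa [hfix x (by simp [-bform_apply, hw, h2, (z01 hi (hf _)).2])
          (by simp [-bform_apply, hu, h1, (z01 hi (he _)).2])]⟩
    by_cases hi1 : i = idx 1
    · subst hi1
      rcases hdi _ _ (he _) _ (hf _) x hi (heQ _) (hfQ _) (hef _) hx with hsp | ⟨h1, h2⟩
      · obtain ⟨p, hp, p', hp', rfl⟩ := Submodule.mem_sup.1 hsp
        obtain ⟨c, rfl⟩ := Submodule.mem_span_singleton.1 hp
        obtain ⟨d, rfl⟩ := Submodule.mem_span_singleton.1 hp'
        refine ⟨idx 0, ?_⟩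
        rw [Matrix.mulVec_add, Matrix.mulVec_smul, Matrix.mulVec_smul, hEe1, hEf1]
        exact add_mem ((D _).smul_mem c (he _)) ((D _).smul_mem d (neg_mem (hf _)))
      · exact ⟨idx 1, by rwa [hfix x (by simp [-bform_apply, hw, h2, (z01 (hf _) hi).1])
          (by simp [-bform_apply, hu, h1, (z01 (he _) hi).1])]⟩
    have hz : ∀ j y, y ∈ D j → i ≠ j → bform hQ y x = 0 := fun j y hy hne =>
      member_b_eq_zero hQ hD (Ne.symm hne) hy hi
    exact ⟨i, by rwa [hfix x (by simp [-bform_apply, hw, hz _ _ (hf _) hi0, hz _ _ (hf _) hi1])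
      (by simp [-bform_apply, hu, hz _ _ (he _) hi0, hz _ _ (he _) hi1])]⟩
  · obtain ⟨σ, hσ⟩ := hst
    have hmaps : ∀ x ∈ D (idx 0), (eichler hQ huQ huw : Matrix ι ι F) *ᵥ x ∈ D (σ (idx 0)) := fun x hx =>
      hσ (idx 0) ▸ ⟨x, hx, Matrix.toLin'_apply _ x⟩
    have hσ0 : σ (idx 0) = idx 1 := by
      by_contra hne'
      exact he0 (idx 1) (member_ne hQ hD hne' (hEe0 ▸ hmaps _ (he _)) (he _))
    have hdim := finrank_le_inf_perp hQ (D (idx 0)) (Submodule.span F {e (idx 0)} ⊔ Submodule.span F {f (idx 0)})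
    have hle : finrank F ↥(Submodule.span F {e (idx 0)} ⊔ Submodule.span F {f (idx 0)}) ≤ 2 := by
      refine (Submodule.finrank_add_le_finrank_add_finrank _ _).trans ?_
      rw [finrank_span_singleton (he0 _)]
      have := finrank_span_le_card ({f (idx 0)} : Set (ι → F)) (R := F)
      simp at this
      omega
    rw [hdec.finrank_eq] at hdim
    obtain ⟨v, hv, hv0⟩ := Submodule.exists_mem_ne_zero_of_ne_bot
      (p := D (idx 0) ⊓ perp hQ (Submodule.span F {e (idx 0)} ⊔ Submodule.span F {f (idx 0)}))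
      (fun h0 => by rw [h0, finrank_bot] at hdim; omega)
    obtain ⟨h1, h2⟩ := (mem_perp_pair hQ).1 hv.2
    have hvfix := hfix v (by simp [-bform_apply, hw, h2, (z01 hv.1 (hf _)).2])
      (by simp [-bform_apply, hu, h1, (z01 hv.1 (he _)).2])
    exact hv0 (member_ne hQ hD h01 hv.1 (hσ0 ▸ hvfix ▸ hmaps v hv.1))
  · rintro ⟨-, j, hj⟩
    rw [hga] at hj
    refine not_mem_of_two hdec h01 ?_ ?_ j hj <;>
      simp [map_add, proj_of_mem hdec (he _), he0, h01, h02, h12, Ne.symm h01, Ne.symm h02, Ne.symm h12]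

end

end CfsgLib.OrthGeo
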