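import Cfsg.Agent.OrthGeo.DecompRefine
import Cfsg.Agent.Classical.SmallFieldFacts

/-! The small members: frames over three and five elements, rational structures over two and four elements,
and pairs of minus planes over two elements. -/

set_option autoImplicit false
set_option linter.unusedSectionVars false

namespace CfsgLib.OrthGeo

open Cfsg Cfsg.Geo Module
open scoped Matrix MatrixGroups

variable {ι : Type} [Fintype ι] [DecidableEq ι] {F : Type*} [Field F] [Fintype F]
variable {Q : (ι → F) → F} (hQ : IsNondegenerateQuadraticForm Q)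

omit hQ in
lemma sq_one_of_card_three (hq : Fintype.card F = 3) {c : F} (hc : c ≠ 0) : c ^ 2 = 1 := by
  simpa [hq] using CfsgLib.SmallField.pow_pred_eq_one hc

omit hQ in
lemma single_support_two (hq : Fintype.card F = 3) {c d : F} (h : c ^ 2 + d ^ 2 = 1) : c = 0 ∨ d = 0 := by
  by_contra h'
  push Not at h'
  rw [sq_one_of_card_three hq h'.1, sq_one_of_card_three hq h'.2] at h
  exact one_ne_zero (α := F) (by linear_combination h)

omit hQ in
lemma single_support_diff (hq : Fintype.card F = 3) {c d : F} (h : c ^ 2 - d ^ 2 = 1) : d = 0 := by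
  by_contra h'
  rw [sq_one_of_card_three hq h'] at h
  by_cases hc : c = 0
  · exact one_ne_zero (α := F) (by
      rw [hc] at h; linear_combination CfsgLib.SmallField.three_eq_zero hq + h)
  · rw [sq_one_of_card_three hq hc] at h
    exact one_ne_zero (α := F) (by linear_combination -h)

omit hQ in
lemma single_support_three (hq : Fintype.card F = 3) {c d e : F} (h : c ^ 2 + d ^ 2 + e ^ 2 = 1) :
    (c = 0 ∧ d = 0) ∨ (c = 0 ∧ e = 0) ∨ (d = 0 ∧ e = 0) := by
  have h3 := CfsgLib.SmallField.three_eq_zero hq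
  by_cases hc : c = 0
  · subst hc
    rcases single_support_two hq (c := d) (d := e) (by linear_combination h) with h' | h'
    · exact Or.inl ⟨rfl, h'⟩
    · exact Or.inr (Or.inl ⟨rfl, h'⟩)
  by_cases hd : d = 0
  · subst hd
    rcases single_support_two hq (c := c) (d := e) (by linear_combination h) with h' | h'
    · exact absurd h' hc
    · exact Or.inr (Or.inr ⟨rfl, h'⟩)
  exfalso
  rw [sq_one_of_card_three hq hc, sq_one_of_card_three hq hd] at h
  by_cases he : e = 0
  · exact one_ne_zero (α := F) (by rw [he] at h; linear_combination h)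
  · rw [sq_one_of_card_three hq he] at h
    exact one_ne_zero (α := F) (by linear_combination h3 - h)

include hQ

lemma orth_step {U : Submodule F (ι → F)} {a : ι → F} (ha : a ∈ U) (haa : bform hQ a a ≠ 0) {x : ι → F}
    (hx : x ∈ U) : ∃ c : F, x - c • a ∈ U ⊓ perp hQ (Submodule.span F {a}) := by
  refine ⟨(bform hQ a a)⁻¹ * bform hQ a x, U.sub_mem hx (U.smul_mem _ ha), (mem_perp_span_singleton hQ).2 ?_⟩
  rw [map_sub, map_smul, smul_eq_mul]
  field_simp
  ring

lemma exists_q_ne_zero {V : Submodule F (ι → F)} (hV : ∀ x ∈ V, x ∈ perp hQ V → x = 0) (h0 : 0 < finrank F V) :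
    ∃ a ∈ V, Q a ≠ 0 := by
  by_contra hcon
  push Not at hcon
  have : V = ⊥ := (Submodule.eq_bot_iff _).2 fun x hx => hV x hx (le_perp_self hQ hcon hx)
  rw [this, finrank_bot] at h0
  omega

lemma signed_dichotomy {a : ι → F} {c c' : F} {l : F} (ha : Q a = l) (hl : l ≠ 0) (h : Q (c • a) = l)
    (h' : Q (c' • a) = l) : c' • a = c • a ∨ c' • a = -(c • a) := by
  rw [q_smul hQ, ha, mul_eq_right₀ hl, sq_eq_one_iff] at h h'
  rcases h with rfl | rfl <;> rcases h' with rfl | rfl <;> simp

/-- Over three elements a member of dimension two or three has a value whose vectors form a frame. -/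
theorem member_frame_three (hq : Fintype.card F = 3) {U : Submodule F (ι → F)}
    (hU : ∀ x ∈ U, x ∈ perp hQ U → x = 0) (hd : finrank F U = 2 ∨ finrank F U = 3) :
    ∃ l : F, l ≠ 0 ∧ (∃ a ∈ U, Q a = l) ∧
      ∀ v ∈ U, ∀ w ∈ U, Q v = l → Q w = l → w = v ∨ w = -v ∨ bform hQ v w = 0 := by
  have h3 := CfsgLib.SmallField.three_eq_zero hq
  have h2 : (2 : F) ≠ 0 := fun h => one_ne_zero (α := F) (by linear_combination h3 - h)
  have hbb : ∀ v : ι → F, Q v ≠ 0 → bform hQ v v ≠ 0 := fun v hv => by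
    rw [b_self hQ]; exact mul_ne_zero h2 hv
  have hval : ∀ x y : F, x ≠ 0 → y ≠ 0 → y = x ∨ y = -x := fun x y hx hy =>
    sq_eq_sq_iff_eq_or_eq_neg.1 (by rw [sq_one_of_card_three hq hx, sq_one_of_card_three hq hy])
  obtain ⟨a, ha, haQ⟩ := exists_q_ne_zero hQ hU (by omega)
  obtain ⟨hU1, hd1⟩ := inf_perp_split hQ hU ha (hbb a haQ)
  obtain ⟨b, hb, hbQ⟩ := exists_q_ne_zero hQ hU1 (by omega)
  obtain ⟨hU2, hd2⟩ := inf_perp_split hQ hU1 hb (hbb b hbQ)
  have hab : bform hQ a b = 0 := (mem_perp_span_singleton hQ).1 hb.2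
  rcases hd with hd | hd
  · have hbot := Submodule.finrank_eq_zero.1 (show finrank F ↥(U ⊓ perp hQ (Submodule.span F {a}) ⊓
      perp hQ (Submodule.span F {b})) = 0 by omega)
    have hexp : ∀ x ∈ U, ∃ c d : F, x = c • a + d • b := by
      intro x hx
      obtain ⟨c, hc⟩ := orth_step hQ ha (hbb a haQ) hx
      obtain ⟨d, hd'⟩ := orth_step hQ hb (hbb b hbQ) hc
      rw [hbot, Submodule.mem_bot, sub_eq_zero] at hd'
      exact ⟨c, d, by rw [← hd']; abel⟩
    refine ⟨Q a, haQ, ⟨a, ha, rfl⟩, fun v hv w hw hvQ hwQ => ?_⟩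
    have hshape : ∀ x ∈ U, Q x = Q a → (∃ c : F, x = c • a) ∨ (∃ d : F, x = d • b ∧ Q b = Q a) := by
      intro x hx hxQ
      obtain ⟨c, d, rfl⟩ := hexp x hx
      rw [q_add hQ, q_smul hQ, q_smul hQ, map_smul, map_smul, LinearMap.smul_apply, hab, smul_zero, smul_zero,
        add_zero] at hxQ
      rcases hval _ _ haQ hbQ with h | h <;> rw [h] at hxQ
      · rcases single_support_two hq (c := c) (d := d) (mul_right_cancel₀ haQ (by linear_combination hxQ))
          with rfl | rfl
        · exact Or.inr ⟨d, by simp, h⟩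
        · exact Or.inl ⟨c, by simp⟩
      · obtain rfl := single_support_diff hq (c := c) (d := d) (mul_right_cancel₀ haQ (by linear_combination hxQ))
        exact Or.inl ⟨c, by simp⟩
    have hzab : ∀ c d : F, bform hQ (c • a) (d • b) = 0 ∧ bform hQ (d • b) (c • a) = 0 := fun c d => by
      constructor <;> simp [-bform_apply, hab, b_symm hQ b a]
    rcases hshape v hv hvQ with ⟨c, rfl⟩ | ⟨c, rfl, hb1⟩ <;>
      rcases hshape w hw hwQ with ⟨d, rfl⟩ | ⟨d, rfl, hb2⟩
    · exact (signed_dichotomy hQ rfl haQ hvQ hwQ).imp_right Or.inl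
    · exact Or.inr (Or.inr (hzab c d).1)
    · exact Or.inr (Or.inr (hzab d c).2)
    · exact (signed_dichotomy hQ hb1 haQ hvQ hwQ).imp_right Or.inl
  · obtain ⟨e, he, heQ⟩ := exists_q_ne_zero hQ hU2 (by omega)
    obtain ⟨-, hd3⟩ := inf_perp_split hQ hU2 he (hbb e heQ)
    have hbe : bform hQ b e = 0 := (mem_perp_span_singleton hQ).1 he.2
    have hae : bform hQ a e = 0 := (mem_perp_span_singleton hQ).1 he.1.2
    have hbot := Submodule.finrank_eq_zero.1 (show finrank F ↥(U ⊓ perp hQ (Submodule.span F {a}) ⊓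
      perp hQ (Submodule.span F {b}) ⊓ perp hQ (Submodule.span F {e})) = 0 by omega)
    have hexp : ∀ x ∈ U, ∃ c d g : F, x = c • a + d • b + g • e := by
      intro x hx
      obtain ⟨c, hc⟩ := orth_step hQ ha (hbb a haQ) hx
      obtain ⟨d, hd'⟩ := orth_step hQ hb (hbb b hbQ) hc
      obtain ⟨g, hg⟩ := orth_step hQ he (hbb e heQ) hd'
      rw [hbot, Submodule.mem_bot, sub_eq_zero] at hg
      exact ⟨c, d, g, by rw [← hg]; abel⟩
    -- an orthogonal basis of equal values
    suffices key : ∀ p r s : ι → F, p ∈ U → bform hQ p r = 0 → bform hQ p s = 0 → bform hQ r s = 0 →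
        Q p ≠ 0 → Q r = Q p → Q s = Q p → (∀ x ∈ U, ∃ c d g : F, x = c • p + d • r + g • s) →
        ∀ v ∈ U, ∀ w ∈ U, Q v = Q p → Q w = Q p → w = v ∨ w = -v ∨ bform hQ v w = 0 by
      have reb : ∀ p r s : ι → F, p ∈ U → r ∈ U → bform hQ p r = 0 → bform hQ p s = 0 → bform hQ r s = 0 →
          Q p ≠ 0 → Q r = Q p → Q s = -Q p → (∀ x ∈ U, ∃ c d g : F, x = c • p + d • r + g • s) →
          ∃ l : F, l ≠ 0 ∧ (∃ a ∈ U, Q a = l) ∧
            ∀ v ∈ U, ∀ w ∈ U, Q v = l → Q w = l → w = v ∨ w = -v ∨ bform hQ v w = 0 := by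
        intro p r s hp hr hpr hps hrs hp0 hrQ hsQ hspan
        have hQp : Q (p + r) = -Q p := by
          rw [q_add hQ, hrQ, hpr]; linear_combination Q p * h3
        refine ⟨-Q p, neg_ne_zero.2 hp0, ⟨p + r, U.add_mem hp hr, hQp⟩, ?_⟩
        rw [← hQp]
        refine key (p + r) (p - r) s (U.add_mem hp hr) ?_ ?_ ?_ (by rw [hQp]; exact neg_ne_zero.2 hp0) ?_
          (by rw [hQp, hsQ]) fun x hx => ?_
        · simp [-bform_apply, b_symm hQ r p, hpr, b_self hQ, hrQ]
        · simp [-bform_apply, hps, hrs]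
        · simp [-bform_apply, hps, hrs]
        · rw [hQp, q_sub hQ, hrQ, hpr]; linear_combination Q p * h3
        · obtain ⟨c, d, g, rfl⟩ := hspan x hx
          refine ⟨-(c + d), -(c - d), g, ?_⟩
          have e1 : (3 * c : F) • p + (3 * d) • r = 0 := by simp [h3]
          linear_combination (norm := module) e1
      rcases hval _ _ haQ hbQ with h | h <;> rcases hval _ _ haQ heQ with h' | h'
      · exact ⟨Q a, haQ, ⟨a, ha, rfl⟩, key a b e ha hab hae hbe haQ h h' hexp⟩
      · exact reb a b e ha hb.1 hab hae hbe haQ h h' hexp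
      · refine reb a e b ha he.1.1 hae hab (by rw [b_symm hQ]; exact hbe) haQ h' h fun x hx => ?_
        obtain ⟨c, d, g, rfl⟩ := hexp x hx
        exact ⟨c, g, d, by abel⟩
      · refine reb b e a hb.1 he.1.1 hbe (by rw [b_symm hQ]; exact hab) (by rw [b_symm hQ]; exact hae) hbQ
          (by rw [h, h']) (by rw [h, neg_neg]) fun x hx => ?_
        obtain ⟨c, d, g, rfl⟩ := hexp x hx
        exact ⟨d, g, c, by abel⟩
    intro p r s hp hpr hps hrs hp0 hrQ hsQ hspan v hv w hw hvQ hwQ
    have hshape : ∀ x ∈ U, Q x = Q p → ∃ c : F, x = c • p ∨ x = c • r ∨ x = c • s := by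
      intro x hx hxQ
      obtain ⟨c, d, g, rfl⟩ := hspan x hx
      simp only [q_add hQ, q_smul hQ, map_add, map_smul, LinearMap.add_apply, LinearMap.smul_apply,
        smul_eq_mul, hpr, hps, hrs, hrQ, hsQ, mul_zero, add_zero] at hxQ
      rcases single_support_three hq (c := c) (d := d) (e := g) (mul_right_cancel₀ hp0 (by linear_combination hxQ))
        with ⟨rfl, rfl⟩ | ⟨rfl, rfl⟩ | ⟨rfl, rfl⟩
      · exact ⟨g, Or.inr (Or.inr (by simp))⟩
      · exact ⟨d, Or.inr (Or.inl (by simp))⟩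
      · exact ⟨c, Or.inl (by simp)⟩
    obtain ⟨c, hc⟩ := hshape v hv hvQ
    obtain ⟨d, hd'⟩ := hshape w hw hwQ
    have hrp : bform hQ r p = 0 := by rw [b_symm hQ]; exact hpr
    have hsp : bform hQ s p = 0 := by rw [b_symm hQ]; exact hps
    have hsr : bform hQ s r = 0 := by rw [b_symm hQ]; exact hrs
    rcases hc with rfl | rfl | rfl <;> rcases hd' with rfl | rfl | rfl <;>
      first
      | exact (signed_dichotomy hQ rfl hp0 hvQ hwQ).imp_right Or.inl
      | exact (signed_dichotomy hQ hrQ hp0 hvQ hwQ).imp_right Or.inl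
      | exact (signed_dichotomy hQ hsQ hp0 hvQ hwQ).imp_right Or.inl
      | exact Or.inr (Or.inr (by simp [-bform_apply, hpr, hps, hrs, hrp, hsp, hsr]))

/-- A hyperbolic plane. -/
lemma exists_hyperbolic_basis {U : Submodule F (ι → F)} (hU : ∀ x ∈ U, x ∈ perp hQ U → x = 0)
    (hd : finrank F U = 2) (hp : IsPlusTypeOn Q U) : ∃ u ∈ U, ∃ z ∈ U, Q u = 0 ∧ Q z = 0 ∧ bform hQ u z = 1 ∧
      ∀ x ∈ U, ∃ c d : F, x = c • u + d • z := by
  obtain ⟨T, hTU, hTs, hTd⟩ := hp
  obtain ⟨u, hu, hu0⟩ := Submodule.exists_mem_ne_zero_of_ne_bot (p := T)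
    (fun h => by rw [h, finrank_bot] at hTd; omega)
  have huQ := hTs u hu
  obtain ⟨x, hx, hxb⟩ := exists_mem_b_ne_zero hQ (fun h => hu0 (hU u (hTU hu) h))
  obtain ⟨x', hx', hb'⟩ : ∃ x' ∈ U, bform hQ u x' = 1 := ⟨(bform hQ x u)⁻¹ • x, U.smul_mem _ hx, by
    rw [map_smul, smul_eq_mul, b_symm hQ u x, inv_mul_cancel₀ hxb]⟩
  set z := x' - Q x' • u with hz
  have hzb : bform hQ u z = 1 := by
    rw [hz, map_sub, map_smul, hb', b_self_eq_zero hQ huQ, smul_zero, sub_zero]
  have hzQ : Q z = 0 := by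
    rw [hz, q_sub hQ, q_smul hQ, huQ, map_smul, b_symm hQ x' u, hb']; simp
  have hzU : z ∈ U := U.sub_mem hx' (U.smul_mem _ (hTU hu))
  refine ⟨u, hTU hu, z, hzU, huQ, hzQ, hzb, fun y hy => ?_⟩
  have hle : Submodule.span F {u, z} ≤ U := Submodule.span_le.2 (by
    rintro v (rfl | rfl) <;> [exact hTU hu; exact hzU])
  have hli : LinearIndependent F ![u, z] := LinearIndependent.pair_iff.2 fun c d h => by
    have h1 := congrArg (bform hQ u) h
    have h2 := congrArg (bform hQ z) h
    simp only [map_add, map_smul, map_zero, smul_eq_mul, b_self_eq_zero hQ huQ, b_self_eq_zero hQ hzQ, hzb,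
      b_symm hQ z u, mul_zero, zero_add, add_zero, mul_one] at h1 h2
    exact ⟨h2, h1⟩
  have hfr : finrank F (Submodule.span F ({u, z} : Set (ι → F))) = 2 := by
    have := finrank_span_eq_card hli
    rwa [Fintype.card_fin, Matrix.range_cons, Matrix.range_cons, Matrix.range_empty, Set.union_empty,
      Set.singleton_union] at this
  rw [← Submodule.eq_of_le_of_finrank_eq hle (by rw [hfr, hd])] at hy
  obtain ⟨c, d, h⟩ := Submodule.mem_span_pair.1 hy
  exact ⟨c, d, h.symm⟩

lemma hyperbolic_values {u z : ι → F} (huQ : Q u = 0) (hzQ : Q z = 0) (hb : bform hQ u z = 1)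
    {c d c' d' : F} (h : Q (c • u + d • z) = 1) (h' : Q (c' • u + d' • z) = 1) :
    ∃ r : F, r ≠ 0 ∧ bform hQ (c • u + d • z) (c' • u + d' • z) = r + r⁻¹ ∧ c' = r * c ∧ d' = r⁻¹ * d := by
  simp only [q_add hQ, q_smul hQ, huQ, hzQ, mul_zero, zero_add, map_smul, LinearMap.smul_apply, hb,
    smul_eq_mul, mul_one] at h h'
  have hc : c ≠ 0 := fun h0 => by rw [h0] at h; simp at h
  have hd : d ≠ 0 := fun h0 => by rw [h0] at h; simp at h
  have hc' : c' ≠ 0 := fun h0 => by rw [h0] at h'; simp at h'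
  have hd'e : d' = (c' / c)⁻¹ * d := by
    field_simp
    linear_combination h' - h
  refine ⟨c' / c, div_ne_zero hc' hc, ?_, by field_simp, hd'e⟩
  simp only [map_add, map_smul, LinearMap.add_apply, LinearMap.smul_apply, smul_eq_mul,
    b_self_eq_zero hQ huQ, b_self_eq_zero hQ hzQ, hb, b_symm hQ z u]
  rw [hd'e]
  field_simp
  linear_combination (c' ^ 2 + c ^ 2) * h

/-- Over five elements the unit vectors of a hyperbolic plane form a frame. -/
theorem member_frame_five (hq : Fintype.card F = 5) {U : Submodule F (ι → F)}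
    (hU : ∀ x ∈ U, x ∈ perp hQ U → x = 0) (hd : finrank F U = 2) (hp : IsPlusTypeOn Q U) :
    (∃ a ∈ U, Q a = 1) ∧ ∀ v ∈ U, ∀ w ∈ U, Q v = 1 → Q w = 1 → w = v ∨ w = -v ∨ bform hQ v w = 0 := by
  obtain ⟨u, hu, z, hz, huQ, hzQ, hb, hspan⟩ := exists_hyperbolic_basis hQ hU hd hp
  refine ⟨⟨u + z, U.add_mem hu hz, by rw [q_add hQ, huQ, hzQ, hb]; simp⟩, fun v hv w hw hvQ hwQ => ?_⟩
  obtain ⟨c, d, rfl⟩ := hspan v hv
  obtain ⟨c', d', rfl⟩ := hspan w hw
  obtain ⟨r, hr, hbr, rfl, rfl⟩ := hyperbolic_values hQ huQ hzQ hb hvQ hwQ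
  have h4 : r ^ 4 = 1 := by simpa [hq] using CfsgLib.SmallField.pow_pred_eq_one hr
  rcases mul_eq_zero.1 (show (r ^ 2 - 1) * (r ^ 2 + 1) = 0 by linear_combination h4) with h | h
  · rcases sq_eq_one_iff.1 (sub_eq_zero.1 h) with rfl | rfl
    · exact Or.inl (by simp)
    · exact Or.inr (Or.inl (by simp [inv_neg, add_comm]))
  · refine Or.inr (Or.inr ?_)
    rw [hbr]
    field_simp
    linear_combination h

/-- Over two and four elements the polar values of unit vectors of a hyperbolic plane are rational. -/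
theorem member_rational {U : Submodule F (ι → F)}
    (hU : ∀ x ∈ U, x ∈ perp hQ U → x = 0) (hd : finrank F U = 2) (hp : IsPlusTypeOn Q U)
    (h2 : (2 : F) = 0) (C : AddSubgroup F)
    (hC : ∀ r : F, r ≠ 0 → r + r⁻¹ ∈ C) {γ : F} (hγ : γ ∉ C) :
    (∃ a ∈ U, Q a = 1) ∧ (∀ v ∈ U, ∀ w ∈ U, Q v = 1 → Q w = 1 → bform hQ v w ∈ C) ∧
      ∀ a ∈ U, Q a = 1 → ∃ z ∈ U, Q z = 0 ∧ bform hQ a z ∉ C := by
  obtain ⟨u, hu, z, hz, huQ, hzQ, hb, hspan⟩ := exists_hyperbolic_basis hQ hU hd hp
  refine ⟨⟨u + z, U.add_mem hu hz, by rw [q_add hQ, huQ, hzQ, hb]; simp⟩, fun v hv w hw hvQ hwQ => ?_,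
    fun a ha haQ => ?_⟩
  · obtain ⟨c, d, rfl⟩ := hspan v hv
    obtain ⟨c', d', rfl⟩ := hspan w hw
    obtain ⟨r, hr, hbr, -, -⟩ := hyperbolic_values hQ huQ hzQ hb hvQ hwQ
    rw [hbr]; exact hC r hr
  · obtain ⟨c, d, rfl⟩ := hspan a ha
    have hd0 : d ≠ 0 := fun h0 => by simp [h0, q_add hQ, q_smul hQ, huQ, q_zero hQ, -bform_apply] at haQ
    refine ⟨(γ / d) • u, U.smul_mem _ hu, by rw [q_smul hQ, huQ, mul_zero], ?_⟩
    simpa [-bform_apply, b_self_eq_zero hQ huQ, b_symm hQ z u, hb, div_mul_cancel₀, hd0] using hγ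

/-- Four-dimensional plus members over two elements. -/
theorem member_planes (hq : Fintype.card F = 2) {U : Submodule F (ι → F)}
    (hU : ∀ x ∈ U, x ∈ perp hQ U → x = 0) (hd : finrank F U = 4) (hp : IsPlusTypeOn Q U) :
    (∃ v ∈ U, ∃ w ∈ U, Q v = 1 ∧ Q w = 1 ∧ bform hQ v w = 1) ∧
    ∀ v ∈ U, ∀ w ∈ U, ∀ x ∈ U, Q v = 1 → Q w = 1 → bform hQ v w = 1 → Q x = 1 →
      x ∈ Submodule.span F {v} ⊔ Submodule.span F {w} ∨ (bform hQ v x = 0 ∧ bform hQ w x = 0) := by
  have h2 := CfsgLib.SmallField.two_eq_zero_of_card_two hq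
  have h01 := CfsgLib.SmallField.eq_zero_or_one hq
  have hne : ∀ a : F, a ≠ 0 → a = 1 := fun a ha => (h01 a).resolve_left ha
  obtain ⟨T, hTU, hTs, hTd⟩ := hp
  have hTb : ∀ a ∈ T, ∀ b ∈ T, bform hQ a b = 0 := fun a ha b hb => le_perp_self hQ hTs hb a ha
  have partner : ∀ V : Submodule F (ι → F), (∀ x ∈ V, x ∈ perp hQ V → x = 0) → ∀ a ∈ V, a ≠ 0 → Q a = 0 →
      ∃ b ∈ V, Q b = 0 ∧ bform hQ a b = 1 := by
    intro V hV a ha ha0 haQ
    obtain ⟨y, hy, hyb⟩ := exists_mem_b_ne_zero hQ (fun h => ha0 (hV a ha h))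
    refine ⟨y - Q y • a, V.sub_mem hy (V.smul_mem _ ha), ?_, ?_⟩
    · rw [q_sub hQ, q_smul hQ, haQ, map_smul, hne _ hyb]; simp
    · rw [map_sub, map_smul, b_self_eq_zero hQ haQ, smul_zero, sub_zero, b_symm hQ]; exact hne _ hyb
  refine ⟨?_, fun v hv w hw x hx hvQ hwQ hvw hxQ => ?_⟩
  · obtain ⟨u, hu, hu0⟩ := Submodule.exists_mem_ne_zero_of_ne_bot (p := T)
      (fun h => by rw [h, finrank_bot] at hTd; omega)
    obtain ⟨z, hz, hzQ, huz⟩ := partner U hU u (hTU hu) hu0 (hTs u hu)
    have hd2 := finrank_le_inf_perp hQ T (Submodule.span F {z})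
    obtain ⟨u', hu', hu'0⟩ := Submodule.exists_mem_ne_zero_of_ne_bot (p := T ⊓ perp hQ (Submodule.span F {z}))
      (fun h => by
        have := finrank_span_le_card ({z} : Set (ι → F)) (R := F)
        simp at this
        rw [h, finrank_bot] at hd2; omega)
    have hzu' : bform hQ z u' = 0 := (mem_perp_span_singleton hQ).1 hu'.2
    obtain ⟨y, hy, hyb⟩ := exists_mem_b_ne_zero hQ (fun h => hu'0 (hU u' (hTU hu'.1) h))
    set y' := y - bform hQ z y • u - bform hQ u y • z with hy'
    have huu : bform hQ u u = 0 := b_self_eq_zero hQ (hTs u hu)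
    have hzz : bform hQ z z = 0 := b_self_eq_zero hQ hzQ
    have huy : bform hQ u y' = 0 := by simp [-bform_apply, hy', huu, huz]
    have hzy : bform hQ z y' = 0 := by simp [-bform_apply, hy', hzz, b_symm hQ z u, huz]
    have hu'y : bform hQ u' y' = 1 := by
      simp [-bform_apply, hy', hTb u' hu'.1 u hu, b_symm hQ u' z, hzu', b_symm hQ u' y, hne _ hyb]
    have hy'U : y' ∈ U := U.sub_mem (U.sub_mem hy (U.smul_mem _ (hTU hu))) (U.smul_mem _ hz)
    set s := y' + (1 + Q y') • u' with hs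
    have hsQ : Q s = 1 := by
      rw [hs, q_add hQ, q_smul hQ, hTs u' hu'.1, map_smul, b_symm hQ y' u', hu'y, smul_eq_mul]
      linear_combination Q y' * h2
    have hus : bform hQ u s = 0 := by simp [-bform_apply, hs, huy, hTb u hu u' hu'.1]
    have hzs : bform hQ z s = 0 := by simp [-bform_apply, hs, hzy, hzu']
    refine ⟨u + z, U.add_mem (hTU hu) hz, u + s, U.add_mem (hTU hu) (U.add_mem hy'U (U.smul_mem _ (hTU hu'.1))),
      by rw [q_add hQ, hTs u hu, hzQ, huz]; simp, by rw [q_add hQ, hTs u hu, hsQ, hus]; simp,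
      by simp [-bform_apply, huu, hus, hzs, b_symm hQ z u, huz]⟩
  · by_contra hcon
    push Not at hcon
    obtain ⟨hsp, hxb⟩ := hcon
    set α := bform hQ v x with hα
    set β := bform hQ w x with hβ
    have hvv : bform hQ v v = 0 := by rw [b_self hQ, h2, zero_mul]
    have hww : bform hQ w w = 0 := by rw [b_self hQ, h2, zero_mul]
    set x' := x + β • v + α • w with hx'
    have hvx : bform hQ v x' = 0 := by
      simp [-bform_apply, hx', hvv, hvw, ← hα]; linear_combination α * h2
    have hwx : bform hQ w x' = 0 := by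
      simp [-bform_apply, hx', hww, b_symm hQ w v, hvw, ← hβ]; linear_combination β * h2
    have hab : (α = 1 ∧ β = 1) ∨ (α = 1 ∧ β = 0) ∨ (α = 0 ∧ β = 1) := by
      rcases h01 α with h | h
      · exact Or.inr (Or.inr ⟨h, hne _ (hxb h)⟩)
      · exact (h01 β).elim (fun h' => Or.inr (Or.inl ⟨h, h'⟩)) (fun h' => Or.inl ⟨h, h'⟩)
    have hx'Q : Q x' = 0 := by
      simp only [hx', q_add hQ, q_smul hQ, map_add, map_smul, LinearMap.add_apply, LinearMap.smul_apply,
        smul_eq_mul, hxQ, hvQ, hwQ, hvw, b_symm hQ x v, b_symm hQ x w, ← hα, ← hβ]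
      rcases hab with ⟨h, h'⟩ | ⟨h, h'⟩ | ⟨h, h'⟩ <;> rw [h, h'] <;>
        first | linear_combination (3 : F) * h2 | linear_combination h2 | linear_combination (2 : F) * h2
    have hx'U : x' ∈ U := U.add_mem (U.add_mem hx (U.smul_mem _ hv)) (U.smul_mem _ hw)
    have hx'0 : x' ≠ 0 := fun h0 => hsp (by
      have e : x = -(β • v + α • w) := eq_neg_of_add_eq_zero_left (by rw [← add_assoc, ← hx', h0])
      rw [e]
      exact neg_mem (Submodule.add_mem_sup (Submodule.smul_mem _ _ (Submodule.mem_span_singleton_self v))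
        (Submodule.smul_mem _ _ (Submodule.mem_span_singleton_self w))))
    -- the perp of the plane inside the member
    obtain ⟨p, hpU, hpQ, hpb⟩ := partner U hU x' hx'U hx'0 hx'Q
    set y := p + bform hQ w p • v + bform hQ v p • w with hy
    have hyv : bform hQ v y = 0 := by
      simp [-bform_apply, hy, hvv, hvw]; linear_combination bform hQ v p * h2
    have hyw : bform hQ w y = 0 := by
      simp [-bform_apply, hy, hww, b_symm hQ w v, hvw]; linear_combination bform hQ w p * h2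
    have hxy : bform hQ x' y = 1 := by
      simp [-bform_apply, hy, hpb, b_symm hQ x' v, b_symm hQ x' w, hvx, hwx]
    have hyU : y ∈ U := U.add_mem (U.add_mem hpU (U.smul_mem _ hv)) (U.smul_mem _ hw)
    let P : (F × F) × (F × F) →ₗ[F] (ι → F) :=
      (((LinearMap.fst F F F).smulRight v + (LinearMap.snd F F F).smulRight w)).comp (LinearMap.fst F _ _) +
      (((LinearMap.fst F F F).smulRight x' + (LinearMap.snd F F F).smulRight y)).comp (LinearMap.snd F _ _)
    have hPap : ∀ q, P q = q.1.1 • v + q.1.2 • w + (q.2.1 • x' + q.2.2 • y) := fun q => by simp [P]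
    have hcoord : ∀ q, bform hQ w (P q) = q.1.1 ∧ bform hQ v (P q) = q.1.2 ∧ bform hQ x' (P q) = q.2.2 ∧
        bform hQ y (P q) = q.2.1 + q.2.2 * bform hQ y y := fun q => by
      rw [hPap]
      simp [-bform_apply, hvv, hww, hvw, b_symm hQ w v, hvx, hwx, hyv, hyw, b_symm hQ x' v, b_symm hQ x' w,
        b_symm hQ y v, b_symm hQ y w, b_symm hQ y x', hxy, b_self_eq_zero hQ hx'Q]
    have hinj : Function.Injective P := by
      rw [← LinearMap.ker_eq_bot, Submodule.eq_bot_iff]
      intro q hq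
      obtain ⟨e1, e2, e3, e4⟩ := hcoord q
      rw [LinearMap.mem_ker.1 hq, map_zero] at e1 e2 e3 e4
      rw [← e3, zero_mul, add_zero] at e4
      exact Prod.ext (Prod.ext e1.symm e2.symm) (Prod.ext e4.symm e3.symm)
    have hrange : LinearMap.range P = U := Submodule.eq_of_le_of_finrank_eq (by
      rintro _ ⟨q, rfl⟩
      rw [hPap]
      exact U.add_mem (U.add_mem (U.smul_mem _ hv) (U.smul_mem _ hw))
        (U.add_mem (U.smul_mem _ hx'U) (U.smul_mem _ hyU)))
      (by rw [LinearMap.finrank_range_of_inj hinj, hd]; simp)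
    -- vectors of T perpendicular to x'
    have hperp : ∀ t ∈ T, bform hQ x' t = 0 → ∃ c : F, t = c • x' := by
      intro t ht h
      obtain ⟨q, hq⟩ : t ∈ LinearMap.range P := hrange ▸ hTU ht
      obtain ⟨-, -, e3, -⟩ := hcoord q
      rw [hq, h] at e3
      have hQ0 := hTs t ht
      rw [← hq, hPap, ← e3] at hQ0
      simp only [zero_smul, add_zero, q_add hQ, q_smul hQ, map_add, map_smul, LinearMap.add_apply,
        LinearMap.smul_apply, smul_eq_mul, hvQ, hwQ, hvw, hx'Q, b_symm hQ v x', b_symm hQ w x'] at hQ0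
      rw [b_symm hQ x' v, b_symm hQ x' w, hvx, hwx] at hQ0
      have h12 : q.1.1 = 0 ∧ q.1.2 = 0 := by
        rcases h01 q.1.1 with h | h <;> rcases h01 q.1.2 with h' | h' <;> rw [h, h'] at hQ0 ⊢
        · exact ⟨rfl, rfl⟩
        all_goals exact absurd hQ0 (by
          intro h0
          exact one_ne_zero (α := F) (by first | linear_combination h0 | linear_combination h0 - h2))
      refine ⟨q.2.1, ?_⟩
      rw [← hq, hPap, h12.1, h12.2, ← e3]
      simp
    have hd2 := finrank_le_inf_perp hQ T (Submodule.span F {x'})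
    rw [finrank_span_singleton hx'0] at hd2
    by_cases hmem : x' ∈ T
    · have hle : T ≤ Submodule.span F {x'} := fun t ht => by
        obtain ⟨c, rfl⟩ := hperp t ht (hTb x' hmem t ht)
        exact Submodule.smul_mem _ _ (Submodule.mem_span_singleton_self x')
      have := Submodule.finrank_mono hle
      rw [finrank_span_singleton hx'0] at this
      omega
    · obtain ⟨t, ht, ht0⟩ := Submodule.exists_mem_ne_zero_of_ne_bot (p := T ⊓ perp hQ (Submodule.span F {x'}))
        (fun h => by rw [h, finrank_bot] at hd2; omega)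
      obtain ⟨c, hc⟩ := hperp t ht.1 ((mem_perp_span_singleton hQ).1 ht.2)
      have hc0 : c ≠ 0 := fun h0 => ht0 (by rw [hc, h0, zero_smul])
      exact hmem (by rw [← (T.smul_mem_iff hc0), ← hc]; exact ht.1)

end CfsgLib.OrthGeo

namespace CfsgLib.OrthGeo

open Cfsg Cfsg.Geo Module

variable {ι : Type} [Fintype ι] [DecidableEq ι] {F : Type*} [Field F] [Fintype F]
variable {Q : (ι → F) → F} (hQ : IsNondegenerateQuadraticForm Q)
variable {t k : ℕ} {D : Fin t → Submodule F (ι → F)}
include hQ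

/-- Over three elements, orthogonal decompositions into members of dimension two or three. -/
theorem decomp_three_not_maximal (hD : IsOrthogonalMDecomposition Q k D) (hn : 13 ≤ Fintype.card ι)
    (hq : Fintype.card F = 3) (hk : k = 2 ∨ k = 3) :
    ∃ K : Subgroup (GL ι F), decompositionStabilizer D ⊓ omegaGL Q < K ∧ K < omegaGL Q := by
  have htk := CfsgLib.DecompProj.mul_eq_card hD.decomp.decomp
  have ht : 5 ≤ t := by rcases hk with rfl | rfl <;> omega
  have h3 := CfsgLib.SmallField.three_eq_zero hq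
  obtain ⟨l, hl, ⟨a, ha, haQ⟩, hfr⟩ := member_frame_three hQ hq (member_radical_free hQ hD ⟨0, by omega⟩)
    (by rw [hD.decomp.decomp.finrank_eq]; exact hk)
  refine frame_decomp_not_maximal hQ hD (by omega) (fun h => one_ne_zero (α := F) (by linear_combination h3 - h))
    (by omega) (by omega) (q := 3) (by exact_mod_cast h3) (by omega) (by omega) hl (fun i => ?_) fun i v hv w hw => ?_
  · obtain ⟨e, he⟩ := hD.isometric ⟨0, by omega⟩ i
    exact ⟨(e ⟨a, ha⟩ : D i), (e ⟨a, ha⟩).2, by rw [he, haQ]⟩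
  · intro hvQ hwQ
    obtain ⟨e, he⟩ := hD.isometric i ⟨0, by omega⟩
    have hb : bform hQ (e ⟨v, hv⟩ : ι → F) (e ⟨w, hw⟩) = bform hQ v w := by
      have h1 := he (⟨v, hv⟩ + ⟨w, hw⟩)
      rw [map_add, Submodule.coe_add, Submodule.coe_add] at h1
      simp only [bform_apply, QuadraticMap.polar]
      rw [h1, he, he]
    rcases hfr _ (e ⟨v, hv⟩).2 _ (e ⟨w, hw⟩).2 (by rw [he, hvQ]) (by rw [he, hwQ]) with h | h | h
    · exact Or.inl (congrArg Subtype.val (e.injective (Subtype.ext h)))
    · refine Or.inr (Or.inl ?_)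
      have : e ⟨w, hw⟩ = e (-⟨v, hv⟩) := Subtype.ext (by rw [h, map_neg, Submodule.coe_neg])
      exact congrArg Subtype.val (e.injective this)
    · exact Or.inr (Or.inr (by rw [← hb]; exact h))

/-- Decompositions of a space into small plus-type members over two, four or five elements. -/
theorem decomp_plus_not_maximal (hD : IsOrthogonalMDecomposition Q k D) (hn : 13 ≤ Fintype.card ι)
    (hp : ∀ i, IsPlusTypeOn Q (D i))
    (hc : (k = 2 ∧ (Fintype.card F = 2 ∨ Fintype.card F = 4 ∨ Fintype.card F = 5)) ∨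
      (k = 4 ∧ Fintype.card F = 2)) :
    ∃ K : Subgroup (GL ι F), decompositionStabilizer D ⊓ omegaGL Q < K ∧ K < omegaGL Q := by
  have htk := CfsgLib.DecompProj.mul_eq_card hD.decomp.decomp
  rcases hc with ⟨rfl, hq⟩ | ⟨rfl, hq⟩
  · have hmem : ∀ i, finrank F (D i) = 2 := hD.decomp.decomp.finrank_eq
    rcases hq with hq | hq | hq
    · have h2 := CfsgLib.SmallField.two_eq_zero_of_card_two hq
      have hC : ∀ r : F, r ≠ 0 → r + r⁻¹ ∈ (⊥ : AddSubgroup F) := fun r hr => by
        rw [(CfsgLib.SmallField.eq_zero_or_one hq r).resolve_left hr, inv_one, AddSubgroup.mem_bot]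
        linear_combination h2
      have key := fun i => member_rational hQ (member_radical_free hQ hD i) (hmem i) (hp i) h2 ⊥ hC
        (γ := 1) (by simp)
      exact rational_decomp_not_maximal hQ hD (by omega) h2 (by omega) ⊥ (fun c h => Or.inl h)
        (fun i => (key i).1) (fun i => (key i).2.1) (fun i => (key i).2.2)
    · have h2 := CfsgLib.SmallField.two_eq_zero_of_card_four hq
      have hmem' : ∀ c ∈ AddSubgroup.zmultiples (1 : F), c = 0 ∨ c = 1 := by
        rintro c ⟨z, rfl⟩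
        rcases Int.even_or_odd z with ⟨j, rfl⟩ | ⟨j, rfl⟩
        · left; simp only [zsmul_one, Int.cast_add]; linear_combination (j : F) * h2
        · right; simp only [zsmul_one, Int.cast_add, Int.cast_mul, Int.cast_ofNat, Int.cast_one]
          linear_combination (j : F) * h2
      obtain ⟨w, hw0, hw1, -⟩ := CfsgLib.SmallField.exists_omega hq
      have hC : ∀ r : F, r ≠ 0 → r + r⁻¹ ∈ AddSubgroup.zmultiples (1 : F) := fun r hr => by
        by_cases h1 : r = 1
        · rw [h1, inv_one, show (1 : F) + 1 = 0 by linear_combination h2]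
          exact zero_mem _
        have hcube := CfsgLib.SmallField.cube_eq_one hq hr
        have h' : r ^ 2 + r + 1 = 0 := (mul_eq_zero.1 (show (r - 1) * (r ^ 2 + r + 1) = 0 by
          linear_combination hcube)).resolve_left (sub_ne_zero.2 h1)
        rw [show r + r⁻¹ = 1 by field_simp; linear_combination h' - r * h2]
        exact AddSubgroup.mem_zmultiples 1
      have hw : w ∉ AddSubgroup.zmultiples (1 : F) := fun h => (hmem' w h).elim hw0 hw1
      have key := fun i => member_rational hQ (member_radical_free hQ hD i) (hmem i) (hp i) h2 _ hC hw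
      exact rational_decomp_not_maximal hQ hD (by omega) h2 (by omega) _ hmem'
        (fun i => (key i).1) (fun i => (key i).2.1) (fun i => (key i).2.2)
    · have h5 : (5 : F) = 0 := by
        have := CfsgLib.SmallField.natCast_card (F := F)
        rw [hq] at this; exact_mod_cast this
      have h2 : (2 : F) ≠ 0 := fun h => one_ne_zero (α := F) (by linear_combination h5 - 2 * h)
      have key := fun i => member_frame_five hQ hq (member_radical_free hQ hD i) (hmem i) (hp i)
      exact frame_decomp_not_maximal hQ hD (by omega) h2 le_rfl (by omega) (q := 5) (by exact_mod_cast h5)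
        (by omega) (by omega) one_ne_zero (fun i => (key i).1) (fun i => (key i).2)
  · have key := fun i => member_planes hQ hq (member_radical_free hQ hD i) (hD.decomp.decomp.finrank_eq i) (hp i)
    exact planes_decomp_not_maximal hQ hD (by omega) (CfsgLib.SmallField.two_eq_zero_of_card_two hq) (by omega)
      (by omega) (fun i => (key i).1) (fun i => (key i).2)

end CfsgLib.OrthGeo
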