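import Cfsg.Agent.OrthGeo.NondegSmall

/-! Maximality of stabilisers of non-degenerate subspaces in dimension at least thirteen, and the absence of
swaps between an even-dimensional half and its perp in minus type. -/

set_option autoImplicit false
set_option linter.unusedSectionVars false

namespace CfsgLib.OrthGeo

open Cfsg.Geo Module
open scoped Matrix MatrixGroups

variable {ι : Type} [Fintype ι] [DecidableEq ι] {F : Type*} [Field F] [Finite F]
variable {Q : (ι → F) → F} (hQ : IsNondegenerateQuadraticForm Q)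
include hQ

lemma mem_stab_perp {g : GL ι F} (hg : g ∈ Cfsg.isometryGroup F Q) {W : Submodule F (ι → F)}
    (h : g ∈ subspaceStabilizer W) : g ∈ subspaceStabilizer (perp hQ W) := by
  refine mem_subspaceStabilizer_of_le fun x hx z hz => ?_
  obtain ⟨z', rfl⟩ : ∃ z', z = (g : Matrix ι ι F) *ᵥ z' := ⟨_, (mulVec_inv_cancel g z).symm⟩
  rw [isometry_b hQ hg]
  exact hx z' ((mem_subspaceStabilizer.1 h z').2 hz)

lemma stab_perp_inf_omega (W : Submodule F (ι → F)) :
    subspaceStabilizer (perp hQ W) ⊓ omegaGL Q = subspaceStabilizer W ⊓ omegaGL Q := by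
  refine le_antisymm (fun g hg => ⟨?_, hg.2⟩) fun g hg => ⟨mem_stab_perp hQ (omegaGL_le hg.2) hg.1, hg.2⟩
  have := mem_stab_perp hQ (omegaGL_le hg.2) hg.1
  rwa [perp_perp hQ] at this

/-- Maximality in dimension at least thirteen. -/
theorem nondeg_isMaximal {W : Submodule F (ι → F)} (hW : ∀ x ∈ W, x ∈ perp hQ W → x = 0) (hk0 : W ≠ ⊥)
    (hk1 : W ≠ ⊤) (hn : 13 ≤ Fintype.card ι)
    (hex : finrank F W = 2 → (∀ x ∈ W, Q x = 0 → x = 0) ∨ 4 ≤ Nat.card F)
    (hex' : finrank F (perp hQ W) = 2 → (∀ x ∈ perp hQ W, Q x = 0 → x = 0) ∨ 4 ≤ Nat.card F)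
    (hswap : finrank F W = finrank F (perp hQ W) → ∀ g ∈ omegaGL Q,
      ∃ x ∈ W, (g : Matrix ι ι F) *ᵥ x ∉ perp hQ W) :
    IsMaximalIn (omegaGL Q) (subspaceStabilizer W ⊓ omegaGL Q) := by
  have hsum := finrank_perp_add hQ W
  rcases lt_trichotomy (finrank F W) (finrank F (perp hQ W)) with h | h | h
  · exact nondeg_small_isMaximal hQ hW hk0 (by omega) h hex
  · exact nondeg_stabilizer_isMaximal hQ hW (by omega) (by omega) (hswap h)
  · rw [← stab_perp_inf_omega hQ W]
    refine nondeg_small_isMaximal hQ (fun x hx hx' => hW x (by rwa [perp_perp hQ] at hx') hx) ?_ ?_ ?_ hex'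
    · intro h0
      have : finrank F W = Fintype.card ι := by rw [h0, finrank_bot] at hsum; omega
      exact hk1 (Submodule.eq_top_of_finrank_eq (by rw [finrank_fintype_fun_eq_card]; exact this))
    · rw [perp_perp hQ]; omega
    · rw [perp_perp hQ]; exact h

/-- Splitting off an anisotropic vector from a non-degenerate subspace. -/
lemma inf_perp_split {U : Submodule F (ι → F)} (hU : ∀ x ∈ U, x ∈ perp hQ U → x = 0) {a : ι → F} (ha : a ∈ U)
    (haa : bform hQ a a ≠ 0) :
    (∀ x ∈ U ⊓ perp hQ (Submodule.span F {a}), x ∈ perp hQ (U ⊓ perp hQ (Submodule.span F {a})) → x = 0) ∧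
    finrank F ↥(U ⊓ perp hQ (Submodule.span F {a})) + 1 = finrank F U := by
  have key : ∀ x ∈ U, x - ((bform hQ a a)⁻¹ * bform hQ a x) • a ∈ U ⊓ perp hQ (Submodule.span F {a}) := by
    intro x hx
    refine ⟨U.sub_mem hx (U.smul_mem _ ha), (mem_perp_span_singleton hQ).2 ?_⟩
    rw [map_sub, map_smul, smul_eq_mul]
    field_simp
    ring
  refine ⟨fun w hw hw' => hU w hw.1 fun x hx => ?_, ?_⟩
  · have h1 := hw' _ (key x hx)
    rw [map_sub, LinearMap.sub_apply, map_smul, LinearMap.smul_apply,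
      (mem_perp_span_singleton hQ).1 hw.2, smul_zero, sub_zero] at h1
    exact h1
  · have h1 : (U ⊓ perp hQ (Submodule.span F {a})) ⊔ Submodule.span F {a} = U := by
      refine le_antisymm (sup_le inf_le_left ((Submodule.span_singleton_le_iff_mem _ _).2 ha)) fun x hx => ?_
      exact Submodule.mem_sup.2 ⟨_, key x hx, _, Submodule.smul_mem _ _ (Submodule.mem_span_singleton_self a),
        sub_add_cancel x _⟩
    have h2 : (U ⊓ perp hQ (Submodule.span F {a})) ⊓ Submodule.span F {a} = ⊥ := by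
      refine (Submodule.eq_bot_iff _).2 fun x hx => ?_
      obtain ⟨c, rfl⟩ := Submodule.mem_span_singleton.1 hx.2
      have h3 := (mem_perp_span_singleton hQ).1 hx.1.2
      rw [map_smul, smul_eq_mul] at h3
      rw [(mul_eq_zero.1 h3).resolve_right haa, zero_smul]
    have h3 := Submodule.finrank_sup_add_finrank_inf_eq (U ⊓ perp hQ (Submodule.span F {a})) (Submodule.span F {a})
    have ha0 : a ≠ 0 := fun h0 => haa (by simp [h0])
    rw [h1, h2, finrank_bot, finrank_span_singleton ha0] at h3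
    omega

/-- In odd characteristic an even-dimensional non-degenerate subspace has an injective linear map into the
whole space negating the form. -/
theorem exists_neg_similitude (h2 : (2 : F) ≠ 0) : ∀ (j : ℕ) (U : Submodule F (ι → F)),
    (∀ x ∈ U, x ∈ perp hQ U → x = 0) → finrank F U = 2 * j →
    ∃ T : Submodule F ((ι → F) × (ι → F)), finrank F T = 2 * j ∧
      ∀ p ∈ T, p.1 ∈ U ∧ p.2 ∈ U ∧ Q p.1 + Q p.2 = 0 := by
  intro j
  induction j with
  | zero =>
    exact fun U _ _ => ⟨⊥, by simp, fun p hp => by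
      rw [(Submodule.mem_bot F).1 hp]; exact ⟨U.zero_mem, U.zero_mem, by simp [q_zero hQ]⟩⟩
  | succ j ih =>
    intro U hU hd
    have hpick : ∀ V : Submodule F (ι → F), (∀ x ∈ V, x ∈ perp hQ V → x = 0) → 0 < finrank F V →
        ∃ a ∈ V, Q a ≠ 0 := by
      intro V hV hV0
      by_contra hcon
      push Not at hcon
      have : V = ⊥ := (Submodule.eq_bot_iff _).2 fun x hx => hV x hx (le_perp_self hQ hcon hx)
      rw [this, finrank_bot] at hV0
      omega
    have hbb : ∀ v : ι → F, Q v ≠ 0 → bform hQ v v ≠ 0 := fun v hv => by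
      rw [b_self hQ]; exact mul_ne_zero h2 hv
    obtain ⟨a, ha, haQ⟩ := hpick U hU (by omega)
    obtain ⟨hU1, hd1⟩ := inf_perp_split hQ hU ha (hbb a haQ)
    obtain ⟨b, hb, hbQ⟩ := hpick _ hU1 (by omega)
    obtain ⟨hU2, hd2⟩ := inf_perp_split hQ hU1 hb (hbb b hbQ)
    obtain ⟨T, hT, hTU⟩ := ih _ hU2 (by omega)
    have hab : bform hQ a b = 0 := (mem_perp_span_singleton hQ).1 hb.2
    obtain ⟨p, r, hpr⟩ : ∃ p r : F, p ^ 2 * Q a + r ^ 2 * Q b = -Q a := by
      have := Fintype.ofFinite F
      have hodd : Fintype.card F % 2 = 1 := FiniteField.odd_card_of_char_ne_two fun hch => h2 (by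
        have : CharP F 2 := by rw [← hch]; exact ringChar.charP F
        exact_mod_cast CharP.cast_eq_zero F 2)
      obtain ⟨p, r, hpr⟩ := FiniteField.exists_root_sum_quadratic
        (f := Polynomial.C (Q a) * Polynomial.X ^ 2 + Polynomial.C (Q a))
        (g := Polynomial.C (Q b) * Polynomial.X ^ 2)
        (by compute_degree <;> first | assumption | simpa using haQ | norm_num | simpa using hbQ)
        (by compute_degree <;> first | assumption | simpa using hbQ | norm_num) hodd
      simp at hpr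
      exact ⟨p, r, by linear_combination hpr⟩
    set x := p • a + r • b with hx
    set y := (-((Q a)⁻¹ * Q b * r)) • a + p • b with hy
    set L : (Fin 2 → F) →ₗ[F] (ι → F) × (ι → F) :=
      (LinearMap.proj 0).smulRight (x, a) + (LinearMap.proj 1).smulRight (y, b) with hL
    have hLap : ∀ c : Fin 2 → F, L c = (c 0 • x + c 1 • y, c 0 • a + c 1 • b) := fun c => by
      simp [hL, Prod.smul_def, Prod.mk_add_mk]
    have hmem : ∀ c : Fin 2 → F, (L c).1 ∈ Submodule.span F {a} ⊔ Submodule.span F {b} ∧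
        (L c).2 ∈ Submodule.span F {a} ⊔ Submodule.span F {b} := by
      have hab' : ∀ s t : F, s • a + t • b ∈ Submodule.span F {a} ⊔ Submodule.span F {b} := fun s t =>
        Submodule.add_mem_sup (Submodule.smul_mem _ _ (Submodule.mem_span_singleton_self a))
          (Submodule.smul_mem _ _ (Submodule.mem_span_singleton_self b))
      intro c
      rw [hLap]
      refine ⟨?_, hab' _ _⟩
      rw [hx, hy, smul_add, smul_add, smul_smul, smul_smul, smul_smul, smul_smul, add_add_add_comm,
        ← add_smul, ← add_smul]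
      exact hab' _ _
    have hplane : ∀ c : Fin 2 → F, Q (L c).1 + Q (L c).2 = 0 := by
      intro c
      rw [hLap]
      simp only [hx, hy, q_add hQ, q_smul hQ, map_add, map_smul, LinearMap.add_apply, LinearMap.smul_apply,
        smul_eq_mul, b_self hQ, hab, b_symm hQ b a]
      field_simp
      linear_combination (Q a * c 0 ^ 2 + Q b * c 1 ^ 2) * hpr
    have hinj : Function.Injective L := by
      rw [← LinearMap.ker_eq_bot, Submodule.eq_bot_iff]
      intro c hc
      rw [LinearMap.mem_ker, hLap, Prod.mk_eq_zero] at hc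
      have h1 := congrArg (bform hQ a) hc.2
      have h3 := congrArg (bform hQ b) hc.2
      simp only [map_add, map_smul, map_zero, smul_eq_mul, hab, b_symm hQ b a, mul_zero, add_zero, zero_add,
        mul_eq_zero, hbb a haQ, hbb b hbQ, or_false] at h1 h3
      ext i; fin_cases i <;> simp [h1, h3]
    have horth : ∀ z ∈ (U ⊓ perp hQ (Submodule.span F {a})) ⊓ perp hQ (Submodule.span F {b}),
        ∀ w ∈ Submodule.span F {a} ⊔ Submodule.span F {b}, bform hQ w z = 0 := fun z hz w hw => by
      have : z ∈ perp hQ (Submodule.span F {a} ⊔ Submodule.span F {b}) := by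
        rw [perp_sup hQ]; exact ⟨hz.1.2, hz.2⟩
      exact this w hw
    have hspanU : Submodule.span F {a} ⊔ Submodule.span F {b} ≤ U :=
      sup_le ((Submodule.span_singleton_le_iff_mem _ _).2 ha) ((Submodule.span_singleton_le_iff_mem _ _).2 hb.1)
    refine ⟨LinearMap.range L ⊔ T, ?_, ?_⟩
    · have hbot : LinearMap.range L ⊓ T = ⊥ := by
        refine (Submodule.eq_bot_iff _).2 ?_
        rintro q ⟨⟨c, rfl⟩, hq⟩
        obtain ⟨-, h22, -⟩ := hTU _ hq
        have h4 : (L c).2 = c 0 • a + c 1 • b := by rw [hLap]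
        have h1 := (mem_perp_span_singleton hQ).1 h22.1.2
        have h3 := (mem_perp_span_singleton hQ).1 h22.2
        rw [h4] at h1 h3
        simp only [map_add, map_smul, smul_eq_mul, hab, b_symm hQ b a, mul_zero, add_zero, zero_add,
          mul_eq_zero, hbb a haQ, hbb b hbQ, or_false] at h1 h3
        rw [show c = 0 by ext i; fin_cases i <;> simp [h1, h3], map_zero]
      have h := Submodule.finrank_sup_add_finrank_inf_eq (LinearMap.range L) T
      rw [hbot, finrank_bot, LinearMap.finrank_range_of_inj hinj, finrank_fin_fun, hT] at h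
      omega
    · intro q hq
      obtain ⟨_, ⟨c, rfl⟩, t, ht, rfl⟩ := Submodule.mem_sup.1 hq
      obtain ⟨ht1, ht2, ht3⟩ := hTU t ht
      refine ⟨U.add_mem (hspanU (hmem c).1) ht1.1.1, U.add_mem (hspanU (hmem c).2) ht2.1.1, ?_⟩
      simp only [Prod.fst_add, Prod.snd_add, q_add hQ, horth _ ht1 _ (hmem c).1, horth _ ht2 _ (hmem c).2]
      linear_combination hplane c + ht3

/-- In minus type no isometry carries an even-dimensional half onto its perp. -/
theorem no_swap_of_minus (hminus : ¬ IsPlusTypeOn Q ⊤) {W : Submodule F (ι → F)}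
    (hW : ∀ x ∈ W, x ∈ perp hQ W → x = 0) (hhalf : finrank F W = finrank F (perp hQ W))
    (hev : Even (finrank F W)) {g : GL ι F} (hg : g ∈ Cfsg.isometryGroup F Q) :
    ∃ x ∈ W, (g : Matrix ι ι F) *ᵥ x ∉ perp hQ W := by
  by_contra hcon
  push Not at hcon
  have hsum := finrank_perp_add hQ W
  obtain ⟨j, hj⟩ := hev
  obtain ⟨T, hT, hTW⟩ : ∃ T : Submodule F ((ι → F) × (ι → F)), finrank F T = finrank F W ∧
      ∀ p ∈ T, p.1 ∈ W ∧ p.2 ∈ W ∧ Q p.1 + Q p.2 = 0 := by
    by_cases h2 : (2 : F) = 0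
    · refine ⟨W.map (LinearMap.prod LinearMap.id LinearMap.id), ?_, ?_⟩
      · exact (Submodule.equivMapOfInjective _ (fun x y h => congrArg Prod.fst h) W).finrank_eq.symm
      · rintro p ⟨w, hw, rfl⟩
        exact ⟨hw, hw, by simp [← two_mul, h2]⟩
    · obtain ⟨T, h1, h2'⟩ := exists_neg_similitude hQ h2 j W hW (by omega)
      exact ⟨T, by omega, h2'⟩
  set S : ((ι → F) × (ι → F)) →ₗ[F] (ι → F) :=
    LinearMap.fst F _ _ + (Matrix.toLin' (g : Matrix ι ι F)).comp (LinearMap.snd F _ _) with hS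
  have hSap : ∀ p, S p = p.1 + (g : Matrix ι ι F) *ᵥ p.2 := fun p => by simp [hS]
  refine hminus ⟨T.map S, le_top, ?_, ?_⟩
  · rintro _ ⟨p, hp, rfl⟩
    obtain ⟨h1, h2, h3⟩ := hTW p hp
    rw [hSap, q_add hQ, mem_isometryGroup.1 hg, hcon _ h2 _ h1, h3, zero_add]
  · have hinj : ∀ p ∈ T, S p = 0 → p = 0 := by
      intro p hp h0
      obtain ⟨h1, h2, -⟩ := hTW p hp
      rw [hSap] at h0
      have e1 : p.1 = -((g : Matrix ι ι F) *ᵥ p.2) := eq_neg_of_add_eq_zero_left h0
      have z1 : p.1 = 0 := hW _ h1 (e1 ▸ Submodule.neg_mem _ (hcon _ h2))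
      rw [z1, zero_add] at h0
      exact Prod.ext z1 (by rw [← inv_mulVec_cancel g p.2, h0, Matrix.mulVec_zero]; rfl)
    have : finrank F (T.map S) = finrank F T := by
      rw [show T.map S = LinearMap.range (S.comp T.subtype) by rw [LinearMap.range_comp, Submodule.range_subtype],
        LinearMap.finrank_range_of_inj]
      intro p q h
      have := hinj (p - q : T) (p - q).2 (by
        have : S (p : (ι → F) × (ι → F)) = S q := h
        simp [this])
      exact Subtype.ext (by simpa [sub_eq_zero] using this)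
    rw [this, hT, finrank_top, finrank_fintype_fun_eq_card]
    omega

end CfsgLib.OrthGeo

namespace CfsgLib.OrthGeo

open Cfsg.Geo Module

variable {ι : Type} [Fintype ι] [DecidableEq ι] {F : Type*} [Field F]
variable {Q : (ι → F) → F} (hQ : IsNondegenerateQuadraticForm Q)
include hQ

lemma radical_free_of_nondegenerateOn {W : Submodule F (ι → F)}
    (hW : IsNondegenerateOn (QuadraticMap.polar Q) W) : ∀ x ∈ W, x ∈ perp hQ W → x = 0 := by
  intro x hx hx'
  by_contra h0
  obtain ⟨⟨y, hy, h⟩, -⟩ := hW x hx h0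
  exact h (hx' y hy)

lemma nondegenerateOn_of_radical_free {W : Submodule F (ι → F)}
    (hW : ∀ x ∈ W, x ∈ perp hQ W → x = 0) : IsNondegenerateOn (QuadraticMap.polar Q) W := by
  intro x hx h0
  obtain ⟨y, hy, h⟩ := exists_mem_b_ne_zero hQ (fun h' => h0 (hW x hx h'))
  exact ⟨⟨y, hy, h⟩, y, hy, by rw [QuadraticMap.polar_comm]; exact h⟩

lemma plane_aniso_or_plusType {W : Submodule F (ι → F)} (hd : finrank F W = 2) :
    (∀ x ∈ W, Q x = 0 → x = 0) ∨ IsPlusTypeOn Q W := by
  refine or_iff_not_imp_left.2 fun h => ?_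
  push Not at h
  obtain ⟨x, hx, hxQ, hx0⟩ := h
  refine ⟨Submodule.span F {x}, (Submodule.span_singleton_le_iff_mem _ _).2 hx, fun w hw => ?_, ?_⟩
  · obtain ⟨c, rfl⟩ := Submodule.mem_span_singleton.1 hw
    rw [q_smul hQ, hxQ, mul_zero]
  · rw [finrank_span_singleton hx0, hd]

/-- The excluded-case hypothesis of the even-dimensional statements, in the form used here. -/
lemma exception_split [Fintype F] {n : ℕ} (hcard : Fintype.card ι = n) {W : Submodule F (ι → F)}
    (hW : ∀ x ∈ W, x ∈ perp hQ W → x = 0)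
    (hex : ¬ (Fintype.card F ≤ 3 ∧ (∃ U : Submodule F (ι → F), finrank F U = 2 ∧
      IsNondegenerateOn (QuadraticMap.polar Q) U ∧ IsPlusTypeOn Q U ∧
      (U = W ∨ (AreOrthogonalFor (QuadraticMap.polar Q) U W ∧ finrank F U + finrank F W = n))))) :
    (finrank F W = 2 → (∀ x ∈ W, Q x = 0 → x = 0) ∨ 4 ≤ Nat.card F) ∧
    (finrank F (perp hQ W) = 2 → (∀ x ∈ perp hQ W, Q x = 0 → x = 0) ∨ 4 ≤ Nat.card F) := by
  have hW' : ∀ x ∈ perp hQ W, x ∈ perp hQ (perp hQ W) → x = 0 := fun x hx hx' =>
    hW x (by rwa [perp_perp hQ] at hx') hx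
  rw [Nat.card_eq_fintype_card]
  refine ⟨fun hd => (plane_aniso_or_plusType hQ hd).imp_right fun hp => ?_,
    fun hd => (plane_aniso_or_plusType hQ hd).imp_right fun hp => ?_⟩
  · by_contra hq
    exact hex ⟨by omega, W, hd, nondegenerateOn_of_radical_free hQ hW, hp, Or.inl rfl⟩
  · by_contra hq
    refine hex ⟨by omega, perp hQ W, hd, nondegenerateOn_of_radical_free hQ hW', hp,
      Or.inr ⟨fun u hu v hv => ?_, by rw [finrank_perp_add hQ, hcard]⟩⟩
    rw [QuadraticMap.polar_comm]
    exact hu v hv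

end CfsgLib.OrthGeo
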