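import Cfsg.Agent.Subfield54.Basic
import Cfsg.Agent.OrthGeo.SingularSpan
import Cfsg.Agent.Eq.Def_GeometricClasses

/-! A subfield structure of a quadratic space: rational vectors and the quadratic form on them. -/

set_option autoImplicit false
set_option linter.unusedSectionVars false

namespace CfsgLib.OrthGeo

open Cfsg.Geo Module CfsgLib.Subfield54
open scoped Matrix MatrixGroups

variable {ι : Type} [Fintype ι] [DecidableEq ι] {F : Type*} [Field F]
variable {F₀ : Subfield F} {Q : (ι → F) → F} {P : GL ι F}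

/-- The vector lies in the `F₀`-span of the columns of `P`. -/
def QW (F₀ : Subfield F) (P : GL ι F) (v : ι → F) : Prop :=
  Rat F₀ (((P⁻¹ : GL ι F) : Matrix ι ι F) *ᵥ v)

/-- A non-degenerate quadratic form with values in `F₀` on the rational vectors. -/
structure QRat (Q : (ι → F) → F) (F₀ : Subfield F) (P : GL ι F) : Prop where
  nondeg : IsNondegenerateQuadraticForm Q
  rat : ∀ v, QW F₀ P v → Q v ∈ F₀

/-- The subfield group inside the omega group. -/
abbrev SubO (Q : (ι → F) → F) (F₀ : Subfield F) (P : GL ι F) : Subgroup (GL ι F) :=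
  Cfsg.Geo.subfieldSubgroup F₀ P ⊓ omegaGL Q

/-- The vector with the given rational coordinates. -/
def qemb (P : GL ι F) (u : ι → F₀) : ι → F := (P : Matrix ι ι F) *ᵥ fun i => (u i : F)

lemma QW.add {v w : ι → F} (hv : QW F₀ P v) (hw : QW F₀ P w) : QW F₀ P (v + w) := by
  rw [QW, Matrix.mulVec_add]; exact CfsgLib.Subfield54.Rat.add hv hw

lemma QW.sub {v w : ι → F} (hv : QW F₀ P v) (hw : QW F₀ P w) : QW F₀ P (v - w) := by
  rw [QW, Matrix.mulVec_sub]; exact CfsgLib.Subfield54.Rat.sub hv hw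

lemma qw_zero : QW F₀ P 0 := by
  rw [QW, Matrix.mulVec_zero]; exact fun _ => F₀.zero_mem

lemma QW.smul {v : ι → F} {c : F} (hc : c ∈ F₀) (hv : QW F₀ P v) : QW F₀ P (c • v) := by
  rw [QW, Matrix.mulVec_smul]; exact CfsgLib.Subfield54.Rat.smul hc hv

lemma QW.neg {v : ι → F} (hv : QW F₀ P v) : QW F₀ P (-v) := by
  simpa using (qw_zero (F₀ := F₀) (P := P)).sub hv

lemma qw_col {u : ι → F} (hu : Rat F₀ u) : QW F₀ P ((P : Matrix ι ι F) *ᵥ u) := by
  rw [QW, inv_mulVec_cancel]; exact hu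

lemma qw_qemb (u : ι → F₀) : QW F₀ P (qemb P u) := qw_col fun i => (u i).2

lemma exists_qemb {v : ι → F} (hv : QW F₀ P v) : ∃ u : ι → F₀, qemb P u = v :=
  ⟨fun i => ⟨_, hv i⟩, mulVec_inv_cancel P v⟩

lemma qemb_add (u v : ι → F₀) : qemb P (u + v) = qemb P u + qemb P v := by
  rw [qemb, qemb, qemb, ← Matrix.mulVec_add]; rfl

lemma qemb_smul (c : F₀) (u : ι → F₀) : qemb P (c • u) = (c : F) • qemb P u := by
  rw [qemb, qemb, ← Matrix.mulVec_smul]; rfl

lemma qemb_zero : qemb P (0 : ι → F₀) = 0 := by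
  simpa using qemb_smul (P := P) (0 : F₀) 0

lemma qemb_injective : Function.Injective (qemb (F₀ := F₀) P) := fun u v h => by
  have h1 := congrArg (((P⁻¹ : GL ι F) : Matrix ι ι F) *ᵥ ·) h
  simp only [qemb, inv_mulVec_cancel] at h1
  exact funext fun i => Subtype.ext (congrFun h1 i)

lemma qemb_ne_zero {u : ι → F₀} (h : u ≠ 0) : qemb P u ≠ 0 := fun h0 =>
  h (qemb_injective (h0.trans qemb_zero.symm))

/-- Linear maps agreeing on rational vectors are equal. -/
lemma qw_linear_ext {V : Type*} [AddCommGroup V] [Module F V] {f g : (ι → F) →ₗ[F] V}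
    (h : ∀ y, QW F₀ P y → f y = g y) : f = g := by
  refine LinearMap.ext fun x => ?_
  have : f.comp (Matrix.mulVecLin (P : Matrix ι ι F)) = g.comp (Matrix.mulVecLin (P : Matrix ι ι F)) :=
    LinearMap.pi_ext' fun i => LinearMap.ext_ring (h _ (qw_col (rat_single i)))
  have := LinearMap.congr_fun this (((P⁻¹ : GL ι F) : Matrix ι ι F) *ᵥ x)
  simpa only [LinearMap.comp_apply, Matrix.mulVecLin_apply, mulVec_inv_cancel] using this

/-- A rational vector in the span of rational vectors is a rational combination of them. -/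
lemma qw_descent {k : ℕ} {u : Fin k → ι → F₀} {x : ι → F₀}
    (h : qemb P x ∈ Submodule.span F (Set.range fun j => qemb P (u j))) :
    x ∈ Submodule.span F₀ (Set.range u) := by
  by_contra hx
  obtain ⟨f, hf, hle⟩ := Submodule.exists_le_ker_of_notMem hx
  set φ : (ι → F) →ₗ[F] F :=
    (∑ i, ((f (Pi.single i 1) : F₀) : F) • LinearMap.proj i).comp (Matrix.mulVecLin ((P⁻¹ : GL ι F) : Matrix ι ι F))
  have hφ : ∀ y : ι → F₀, φ (qemb P y) = ((f y : F₀) : F) := by
    intro y
    conv_rhs => rw [← Finset.univ_sum_single y, map_sum, AddSubmonoidClass.coe_finset_sum]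
    simp only [φ, LinearMap.comp_apply, Matrix.mulVecLin_apply, qemb, inv_mulVec_cancel, LinearMap.sum_apply,
      LinearMap.smul_apply, LinearMap.proj_apply, smul_eq_mul]
    refine Finset.sum_congr rfl fun i _ => ?_
    rw [show (Pi.single i (y i) : ι → F₀) = y i • (Pi.single i (1 : F₀) : ι → F₀) from
      funext fun j => by simp [Pi.single_apply], map_smul, smul_eq_mul, Subfield.coe_mul, mul_comm]
  have hker : Submodule.span F (Set.range fun j => qemb P (u j)) ≤ LinearMap.ker φ := by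
    refine Submodule.span_le.2 ?_
    rintro _ ⟨j, rfl⟩
    rw [SetLike.mem_coe, LinearMap.mem_ker, hφ, show f (u j) = 0 from hle (Submodule.subset_span ⟨j, rfl⟩)]
    rfl
  exact hf (Subtype.ext (by rw [← hφ x]; exact hker h))

lemma qemb_mem_span {k : ℕ} {u : Fin k → ι → F₀} {t : ι → F₀} (ht : t ∈ Submodule.span F₀ (Set.range u)) :
    qemb P t ∈ Submodule.span F (Set.range fun j => qemb P (u j)) := by
  induction ht using Submodule.span_induction with
  | mem z hz => obtain ⟨j, rfl⟩ := hz; exact Submodule.subset_span ⟨j, rfl⟩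
  | zero => rw [qemb_zero]; exact zero_mem _
  | add y z _ _ hy hz => rw [qemb_add]; exact add_mem hy hz
  | smul r y _ hy => rw [qemb_smul]; exact Submodule.smul_mem _ _ hy

lemma mem_qsubfield_of_lines {g : GL ι F}
    (h : ∀ v, QW F₀ P v → ∃ (s : F) (w : ι → F), QW F₀ P w ∧ (g : Matrix ι ι F) *ᵥ v = s • w) :
    g ∈ Cfsg.Geo.subfieldSubgroup F₀ P := by
  have h1 : P⁻¹ * g * P ∈ Cfsg.Geo.subfieldSubgroup F₀ (1 : GL ι F) := by
    refine mem_subfield_of_ratLine fun u hu => ?_
    obtain ⟨s, w, hw, e⟩ := h _ (qw_col (P := P) hu)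
    refine ⟨s, _, hw, ?_⟩
    rw [Units.val_mul, Units.val_mul, ← Matrix.mulVec_mulVec, ← Matrix.mulVec_mulVec, e, Matrix.mulVec_smul]
  rw [CfsgLib.Aschbacher.mem_subfieldSubgroup_iff] at h1 ⊢
  simpa using h1

lemma scalar_of_mem_qsubfield {g : GL ι F} (hg : g ∈ Cfsg.Geo.subfieldSubgroup F₀ P) :
    ∃ s : F, s ≠ 0 ∧ ∀ v, QW F₀ P v → ∃ w, QW F₀ P w ∧ (g : Matrix ι ι F) *ᵥ v = s • w := by
  obtain ⟨S, c, e⟩ := CfsgLib.Aschbacher.mem_subfieldSubgroup_iff.1 hg
  refine ⟨c, c.ne_zero, fun v hv => ?_⟩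
  have e' : g = P * (Matrix.GeneralLinearGroup.map (F₀.subtype : F₀ →+* F) S *
      Units.map (Matrix.scalar ι : F →+* Matrix ι ι F).toMonoidHom c) * P⁻¹ := by
    rw [← e]; group
  set u := ((P⁻¹ : GL ι F) : Matrix ι ι F) *ᵥ v with hu
  refine ⟨(P : Matrix ι ι F) *ᵥ ((Matrix.GeneralLinearGroup.map (F₀.subtype : F₀ →+* F) S :
      Matrix ι ι F) *ᵥ u), qw_col fun i => ?_, ?_⟩
  · show (∑ j, ((S.val i j : F₀) : F) * u j) ∈ F₀
    exact Subfield.sum_mem _ fun j _ => F₀.mul_mem (SetLike.coe_mem (S.val i j)) (hv j)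
  · rw [e', Units.val_mul, Units.val_mul, Units.val_mul, ← Matrix.mulVec_mulVec, ← Matrix.mulVec_mulVec,
      ← Matrix.mulVec_mulVec, ← hu]
    simp only [Units.coe_map, RingHom.toMonoidHom_eq_coe, MonoidHom.coe_coe]
    rw [Matrix.scalar_apply, show (Matrix.diagonal fun _ => (c : F)) *ᵥ u = (c : F) • u from
      funext fun i => by simp [Matrix.mulVec_diagonal], Matrix.mulVec_smul, Matrix.mulVec_smul]

lemma qw_scalar_mem {v w : ι → F} {s : F} (hv : QW F₀ P v) (hw : QW F₀ P w) (h : v = s • w) (hw0 : w ≠ 0) :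
    s ∈ F₀ := by
  obtain ⟨i, hi⟩ : ∃ i, (((P⁻¹ : GL ι F) : Matrix ι ι F) *ᵥ w) i ≠ 0 := by
    refine exists_coord_ne fun h0 => hw0 ?_
    rw [← mulVec_inv_cancel P w, h0, Matrix.mulVec_zero]
  have h1 := congrFun (congrArg (((P⁻¹ : GL ι F) : Matrix ι ι F) *ᵥ ·) h) i
  simp only [Matrix.mulVec_smul, Pi.smul_apply, smul_eq_mul] at h1
  rw [← mul_div_cancel_right₀ s hi, ← h1]
  exact F₀.div_mem (hv i) (hw i)

lemma preserves_of_qfix {g : GL ι F} (hg : g ∈ Cfsg.Geo.subfieldSubgroup F₀ P) {w : ι → F} (hw : QW F₀ P w)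
    (hw0 : w ≠ 0) (hgw : (g : Matrix ι ι F) *ᵥ w = w) :
    ∀ v, QW F₀ P v → QW F₀ P ((g : Matrix ι ι F) *ᵥ v) := by
  obtain ⟨s, hs0, hs⟩ := scalar_of_mem_qsubfield hg
  obtain ⟨w', hw', e⟩ := hs w hw
  rw [hgw] at e
  have hs' : s ∈ F₀ := qw_scalar_mem hw hw' e fun h0 => hw0 (by rw [e, h0, smul_zero])
  intro v hv
  obtain ⟨u, hu, e'⟩ := hs v hv
  rw [e']
  exact hu.smul hs'

section Form

variable (hR : QRat Q F₀ P)
include hR

lemma qw_b_mem {u v : ι → F} (hu : QW F₀ P u) (hv : QW F₀ P v) : bform hR.nondeg u v ∈ F₀ :=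
  F₀.sub_mem (F₀.sub_mem (hR.rat _ (hu.add hv)) (hR.rat _ hu)) (hR.rat _ hv)

/-- The quadratic form in rational coordinates. -/
def qQ (u : ι → F₀) : F₀ := ⟨Q (qemb P u), hR.rat _ (qw_qemb u)⟩

lemma qQ_polar (u v : ι → F₀) :
    ((QuadraticMap.polar (qQ hR) u v : F₀) : F) = bform hR.nondeg (qemb P u) (qemb P v) := by
  simp only [QuadraticMap.polar, qQ, AddSubgroupClass.coe_sub, qemb_add, bform_apply]

lemma qw_perp_eq_zero {v : ι → F} (h : ∀ y, QW F₀ P y → bform hR.nondeg v y = 0) : v = 0 :=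
  (b_nondeg hR.nondeg).1 v fun y => LinearMap.congr_fun (qw_linear_ext (g := 0) h) y

lemma qQ_nondeg : IsNondegenerateQuadraticForm (qQ hR) where
  smul c v := Subtype.ext (by simp [qQ, qemb_smul, q_smul hR.nondeg])
  polar_bilinear :=
    { add_left := fun x y v => Subtype.ext (by simp only [Subfield.coe_add, qQ_polar hR, qemb_add, map_add, LinearMap.add_apply])
      smul_left := fun c x v => Subtype.ext (by simp only [Subfield.coe_mul, qQ_polar hR, qemb_smul, map_smul, LinearMap.smul_apply, smul_eq_mul])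
      add_right := fun v x y => Subtype.ext (by simp only [Subfield.coe_add, qQ_polar hR, qemb_add, map_add])
      smul_right := fun c v x => Subtype.ext (by simp only [Subfield.coe_mul, qQ_polar hR, qemb_smul, map_smul, smul_eq_mul]) }
  nondegenerate v hv := by
    obtain ⟨w, hw, hvw⟩ : ∃ w, QW F₀ P w ∧ bform hR.nondeg (qemb P v) w ≠ 0 := by
      by_contra hc
      push Not at hc
      exact qemb_ne_zero hv (qw_perp_eq_zero hR hc)
    obtain ⟨x, rfl⟩ := exists_qemb hw
    refine ⟨⟨x, fun h => hvw ?_⟩, ⟨x, fun h => hvw ?_⟩⟩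
    · rw [b_symm hR.nondeg, ← qQ_polar hR, h]; rfl
    · rw [← qQ_polar hR, h]; rfl

lemma bform_qQ (u v : ι → F₀) :
    ((bform (qQ_nondeg hR) u v : F₀) : F) = bform hR.nondeg (qemb P u) (qemb P v) := qQ_polar hR u v

/-- A vector with rational products with all rational vectors is rational. -/
lemma qw_of_b_mem {v : ι → F} (h : ∀ y, QW F₀ P y → bform hR.nondeg v y ∈ F₀) : QW F₀ P v := by
  let ψ : Module.Dual F₀ (ι → F₀) :=
    { toFun := fun u => ⟨bform hR.nondeg v (qemb P u), h _ (qw_qemb u)⟩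
      map_add' := fun u u' => Subtype.ext (by simp only [qemb_add, map_add, Subfield.coe_add])
      map_smul' := fun c u => Subtype.ext (by
        simp only [qemb_smul, map_smul, smul_eq_mul, RingHom.id_apply, Subfield.coe_mul]) }
  set w := ((bform (qQ_nondeg hR)).toDual (b_nondeg (qQ_nondeg hR))).symm ψ with hw
  have hval : ∀ u, bform hR.nondeg (qemb P w) (qemb P u) = bform hR.nondeg v (qemb P u) := fun u => by
    rw [← bform_qQ hR]
    have := LinearMap.BilinForm.toDual_def (b_nondeg (qQ_nondeg hR)) (m := w) (n := u)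
    rw [hw, LinearEquiv.apply_symm_apply] at this
    rw [hw, ← this]; rfl
  have : v - qemb P w = 0 := qw_perp_eq_zero hR fun y hy => by
    obtain ⟨u, rfl⟩ := exists_qemb hy
    rw [map_sub, LinearMap.sub_apply, hval, sub_self]
  rw [sub_eq_zero.1 this]
  exact qw_qemb w

lemma mem_qperp_range {k : ℕ} {u : Fin k → ι → F₀} {x : ι → F₀} :
    x ∈ perp (qQ_nondeg hR) (Submodule.span F₀ (Set.range u)) ↔
      ∀ j, bform hR.nondeg (qemb P (u j)) (qemb P x) = 0 := by
  rw [mem_perp (qQ_nondeg hR)]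
  constructor
  · intro h j
    rw [← bform_qQ hR, h _ (Submodule.subset_span ⟨j, rfl⟩)]; rfl
  · intro h w hw
    induction hw using Submodule.span_induction with
    | mem z hz => obtain ⟨j, rfl⟩ := hz; exact Subtype.ext ((bform_qQ hR _ _).trans (h j))
    | zero => simp only [map_zero, LinearMap.zero_apply]
    | add y z _ _ hy hz => rw [map_add, LinearMap.add_apply, hy, hz, add_zero]
    | smul c y _ hy => rw [map_smul, LinearMap.smul_apply, hy, smul_zero]

variable [Finite F]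

/-- A singular rational vector orthogonal to given rational vectors and outside the span of others. -/
lemma exists_qw_singular {k m : ℕ} (v : Fin k → ι → F) (w : Fin m → ι → F) (hv : ∀ j, QW F₀ P (v j))
    (hw : ∀ j, QW F₀ P (w j)) (h : k + m + 3 ≤ Fintype.card ι) :
    ∃ c, QW F₀ P c ∧ Q c = 0 ∧ c ≠ 0 ∧ (∀ j, bform hR.nondeg (v j) c = 0) ∧
      c ∉ Submodule.span F (Set.range w) := by
  choose v' hv' using fun j => exists_qemb (hv j)
  choose w' hw' using fun j => exists_qemb (hw j)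
  obtain rfl : (fun j => qemb P (w' j)) = w := funext hw'
  have h1 := finrank_perp_add (qQ_nondeg hR) (Submodule.span F₀ (Set.range v'))
  have h2 : finrank F₀ (Submodule.span F₀ (Set.range v')) ≤ k :=
    (finrank_range_le_card v').trans (Fintype.card_fin k).le
  have h3 : finrank F₀ (Submodule.span F₀ (Set.range w')) ≤ m :=
    (finrank_range_le_card w').trans (Fintype.card_fin m).le
  obtain ⟨c, hc, hcQ, hc0, hcN⟩ := exists_singular_avoid (qQ_nondeg hR)
    (T := perp (qQ_nondeg hR) (Submodule.span F₀ (Set.range v'))) (P := Submodule.span F₀ (Set.range w')) (by omega)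
  refine ⟨_, qw_qemb c, congrArg Subtype.val hcQ, qemb_ne_zero hc0, fun j => ?_, fun hm => hcN (qw_descent hm)⟩
  rw [← hv' j]
  exact (mem_qperp_range hR).1 hc j

lemma exists_qw_pair_one {k : ℕ} (v : Fin k → ι → F) {c : ι → F} (hv : ∀ j, QW F₀ P (v j)) (hc : QW F₀ P c)
    (hcv : c ∉ Submodule.span F (Set.range v)) :
    ∃ y, QW F₀ P y ∧ (∀ j, bform hR.nondeg (v j) y = 0) ∧ bform hR.nondeg c y = 1 := by
  choose v' hv' using fun j => exists_qemb (hv j)
  obtain ⟨c, rfl⟩ := exists_qemb hc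
  obtain rfl : (fun j => qemb P (v' j)) = v := funext hv'
  obtain ⟨y, -, hy, hy1⟩ := exists_b_one_mem (qQ_nondeg hR) (S := ⊤) (T := Submodule.span F₀ (Set.range v'))
    (v := c) (fun hm => by
      obtain ⟨t, ht, z, hz, e⟩ := Submodule.mem_sup.1 hm
      obtain rfl : z = 0 := (b_nondeg (qQ_nondeg hR)).1 z fun y => by
        rw [b_symm (qQ_nondeg hR)]; exact hz y Submodule.mem_top
      rw [add_zero] at e
      subst e
      exact hcv (qemb_mem_span ht))
  exact ⟨_, qw_qemb y, (mem_qperp_range hR).1 hy, by rw [← bform_qQ hR, hy1]; rfl⟩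

lemma exists_qw_singular_pair_one {k : ℕ} (v : Fin k → ι → F) {c : ι → F} (hv : ∀ j, QW F₀ P (v j))
    (hc : QW F₀ P c) (hcv : c ∉ Submodule.span F (Set.range v)) (h : 2 * k + 5 ≤ Fintype.card ι) :
    ∃ y, QW F₀ P y ∧ Q y = 0 ∧ (∀ j, bform hR.nondeg (v j) y = 0) ∧ bform hR.nondeg c y = 1 := by
  choose v' hv' using fun j => exists_qemb (hv j)
  obtain ⟨c, rfl⟩ := exists_qemb hc
  obtain rfl : (fun j => qemb P (v' j)) = v := funext hv'
  have h2 : finrank F₀ (Submodule.span F₀ (Set.range v')) ≤ k :=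
    (finrank_range_le_card v').trans (Fintype.card_fin k).le
  obtain ⟨y, hy, hyQ, hy1⟩ := exists_singular_b_one (qQ_nondeg hR) (Submodule.span F₀ (Set.range v')) (c := c)
    (fun ht => hcv (qemb_mem_span ht))
    (by omega)
  exact ⟨_, qw_qemb y, congrArg Subtype.val hyQ, (mem_qperp_range hR).1 hy, by rw [← bform_qQ hR, hy1]; rfl⟩

/-- The rational perp of few rational vectors is generated by its singular vectors. -/
lemma qw_singular_induction {k : ℕ} (v : Fin k → ι → F) (hv : ∀ j, QW F₀ P (v j))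
    (h : 2 * k + 3 ≤ Fintype.card ι) (motive : (ι → F) → Prop)
    (hadd : ∀ x y, QW F₀ P x → QW F₀ P y → motive x → motive y → motive (x + y))
    (hs : ∀ s, QW F₀ P s → Q s = 0 → (∀ j, bform hR.nondeg (v j) s = 0) → motive s)
    {x : ι → F} (hx : QW F₀ P x) (hxv : ∀ j, bform hR.nondeg (v j) x = 0) : motive x := by
  choose v' hv' using fun j => exists_qemb (hv j)
  obtain ⟨x, rfl⟩ := exists_qemb hx
  obtain rfl : (fun j => qemb P (v' j)) = v := funext hv'
  have h2 : finrank F₀ (Submodule.span F₀ (Set.range v')) ≤ k :=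
    (finrank_range_le_card v').trans (Fintype.card_fin k).le
  refine perp_induction (qQ_nondeg hR) (Submodule.span F₀ (Set.range v')) (by omega)
    (fun y => motive (qemb P y)) (fun y _ z _ hy hz => ?_) (fun s hs' hsQ => ?_) ((mem_qperp_range hR).2 hxv)
  · show motive (qemb P (y + z))
    rw [qemb_add]
    exact hadd _ _ (qw_qemb y) (qw_qemb z) hy hz
  · exact hs _ (qw_qemb s) (congrArg Subtype.val hsQ) ((mem_qperp_range hR).1 hs')

lemma eIn_rat (hn : 5 ≤ Fintype.card ι) {u w : ι → F} (hu : QW F₀ P u) (hw : QW F₀ P w) (huQ : Q u = 0)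
    (huw : bform hR.nondeg u w = 0) : EIn Q (SubO Q F₀ P) u w := by
  refine ⟨eichler hR.nondeg huQ huw, ⟨mem_qsubfield_of_lines fun x hx => ⟨1, _, ?_, (one_smul F _).symm⟩,
    eichler_mem_omega hR.nondeg hn huQ huw⟩, rfl⟩
  rw [eichler_mulVec hR.nondeg]
  exact ((hx.add (hu.smul (qw_b_mem hR hw hx))).sub (hw.smul (qw_b_mem hR hu hx))).sub
    (hu.smul (F₀.mul_mem (hR.rat _ hw) (qw_b_mem hR hu hx)))

end Form

lemma eichlerMat_smul_left (hQ : IsNondegenerateQuadraticForm Q) (l : F) (u w : ι → F) :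
    eichlerMat Q (l • u) w = eichlerMat Q u (l • w) := by
  refine Matrix.ext_of_mulVec_single fun i => ?_
  generalize (Pi.single i 1 : ι → F) = y
  rw [eichlerMat_mulVec hQ, eichlerMat_mulVec hQ, q_smul hQ]
  simp only [map_smul, LinearMap.smul_apply, smul_eq_mul]
  module

end CfsgLib.OrthGeo
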